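import Cfsg.Agent.Oq.E

/-! Subgroups `Ω₈⁺(4)` of `E₈(2)`: normalizers and centralizers by the Bruhat decomposition. -/

set_option autoImplicit false

namespace CF.Oq

open CF.Chev CF.BN Cfsg Cfsg.Lie Matrix

namespace Cx

variable (c : Cx)

theorem mem_U_of_ep {u : c.G} (hu : u ∈ c.ρ.Up) {S : Set V5}
    (e : ∀ k ∈ S, c.ep k * u * (c.ep k)⁻¹ = u) : u ∈ c.ρ.U {r | ∀ k ∈ S, R r ⬝ᵥ k = 0} := by
  have := mem_U_of_conj c.h.faith c.h.r3 c8.closed_pos (fun _ h => h) hu (T := c.ec '' S)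
    (by rintro _ ⟨k, hk, rfl⟩; exact e k hk)
  refine c.ρ.U_mono (fun r hr => ?_) this
  refine fun k hk => c.pw_inj ?_
  rw [← rv_ec, hr.2 _ ⟨k, hk, rfl⟩, pw_zero]

theorem eq_one_of_ep {u : c.G} (hu : u ∈ c.ρ.Up) (e : ∀ k, c.ep k * u * (c.ep k)⁻¹ = u) :
    u = 1 := by
  have := c.mem_U_of_ep hu (S := Set.univ) fun k _ => e k
  rwa [show {r | ∀ k ∈ (Set.univ : Set V5), R r ⬝ᵥ k = 0} = ∅ from
    Set.eq_empty_of_forall_notMem fun r hr => R_ne r (dotProduct_eq_zero _ fun k => hr k trivial),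
    c.ρ.U_empty, Subgroup.mem_bot] at this

theorem exists_of_NW {g : c.G} (hg : g ∈ c.Γ) {u : Equiv.Perm Rt} (h : c.ρ.NW g u) :
    ∃ k, g = c.ep k * c.ν u := by
  obtain ⟨k, hk⟩ := c.exists_ep (mul_mem hg (inv_mem (c.ν_mem_Γ (c.mem_Cw_of_NW hg h))))
    (h.mul_inv_mem_H (c.nW_ν h.mem_W))
  exact ⟨k, by rw [hk, inv_mul_cancel_right]⟩

theorem norm_E {g : c.G} (hg : g ∈ c.Γ) (h : ∀ k, ∃ k', g * c.ep k * g⁻¹ = c.ep k') :
    ∃ u ∈ Cw, ∃ k, g = c.ep k * c.ν u := by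
  choose f hf using h
  have hi : Function.Injective f := fun k l e => c.ep_inj (by
    have := hf k
    rw [e, ← hf l] at this
    simpa using this)
  obtain ⟨v, u, hu, n, hn, u', hu', rfl⟩ := exists_unu c.h.top g
  have key := fun k => conj_H_decomp c.h.faith hu hn hu' (c.ep_mem_H k) (c.ep_mem_H _) (hf k)
  obtain rfl := c.eq_one_of_ep hu fun k => by
    obtain ⟨k, rfl⟩ := Finite.surjective_of_injective hi k
    exact (key k).1
  obtain rfl := c.eq_one_of_ep (c.ρ.Uw_le_Up _ hu') fun k => (key k).2.2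
  rw [one_mul, mul_one] at hg ⊢
  exact ⟨v, c.mem_Cw_of_NW hg hn, c.exists_of_NW hg hn⟩

theorem nW_ep (k : V5) {u : Equiv.Perm Rt} (hu : u ∈ c8.W) : c.ρ.NW (c.ep k * c.ν u) u := by
  simpa using (StRep.nW_of_mem_H (c.ep_mem_H k)).mul (c.nW_ν hu)

theorem cent_E {g : c.G} (hg : g ∈ c.Γ) (h : ∀ k, g * c.ep k = c.ep k * g) : ∃ k, g = c.ep k := by
  obtain ⟨u, hu, k, rfl⟩ := c.norm_E hg fun k => ⟨k, by rw [h, mul_inv_cancel_right]⟩
  have : u = 1 := Equiv.ext fun r => R_inj (sub_eq_zero.1 (dotProduct_eq_zero _ fun l => by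
    rw [sub_dotProduct, (c.conj_ep_iff (c.nW_ep k hu.1) l l).1 (by rw [h, mul_inv_cancel_right]) r]
    exact sub_self _))
  exact ⟨k, by rw [this, ν_one, mul_one]⟩

theorem cent_hyp {a : Rt} {g : c.G} (h : ∀ k, R a ⬝ᵥ k = 0 → g * c.ep k = c.ep k * g) {x : c.G}
    (hx : x ∈ c.ρ.U (Qa a)) : g * x * g⁻¹ ∈ c.ρ.U (Qa a) := by
  obtain ⟨v, u, hu, n, hn, u', hu', rfl⟩ := exists_unu c.h.top g
  have key := fun k (hk : R a ⬝ᵥ k = 0) => conj_H_decomp c.h.faith hu hn hu' (c.ep_mem_H k)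
    (c.ep_mem_H k) (by rw [h k hk, mul_inv_cancel_right])
  have hU : ∀ y ∈ c.ρ.Up, (∀ k, R a ⬝ᵥ k = 0 → c.ep k * y * (c.ep k)⁻¹ = y) → y ∈ c.ρ.U (Qa a) :=
    fun y hy e => c.ρ.U_mono (fun r hr => (mem_Qa_iff a r).2 hr)
      (c.mem_U_of_ep hy (S := {k | R a ⬝ᵥ k = 0}) e)
  have h1 := hU u hu fun k hk => (key k hk).1
  have h2 := hU u' (c.ρ.Uw_le_Up _ hu') fun k hk => (key k hk).2.2
  have h3 := hn.acts.conj_mem_U (S := Qa a) (T := Qa a) (fun r hr => (mem_Qa_iff a _).2 fun k hk => by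
    rw [(c.conj_ep_iff hn k k).1 (key k hk).2.1 r]
    exact (mem_Qa_iff a r).1 hr k hk) (mul_mem (mul_mem h2 hx) (inv_mem h2))
  have := mul_mem (mul_mem h1 h3) (inv_mem h1)
  simpa only [_root_.mul_inv_rev, mul_assoc] using this

end Cx

end CF.Oq
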