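import Cfsg.Agent.Oq.A
import Cfsg.Agent.Chev.RootX

/-! Root combinatorics of the twisted model. -/

set_option autoImplicit false

namespace CF.Oq

open CF.Chev CF.BN Cfsg Cfsg.Lie Matrix

namespace C1

theorem aut {u : Equiv.Perm Rt} (hu : u ∈ Cw) : u ∈ c8.Aut := c8.W_le_Aut hu.1

theorem wA : w ∈ c8.Aut := c8.W_le_Aut w_mem_W

theorem len (r : Rt) : c8.len r = 1 := (tb8.len r).trans (by revert r; decide +kernel)

/-- The values on the torus as a linear map. -/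
noncomputable def Rl : (Fin 8 → ℤ) →ₗ[ℤ] V5 :=
  LinearMap.pi fun a => (Algebra.linearMap ℤ (ZMod 5)).comp (∑ i, (Yv a i : ℤ) • c8.cor (c8.simple i))

theorem Rl_vec (r : Rt) : Rl (c8.vec r) = R r := funext fun a => by simp [Rl, R, RootSys.A_def]

/-- The masks of the two factors. -/
def M1 : Fin 2 → ℕ := ![0x118e38c400231c7188000000000000000000000,
  0x1004100088400110620400002046088002110008200800000000]

/-- The masks of the two factors. -/
def M2 : Fin 2 → ℕ := ![0xe01c00000000000000038000000007e000000001c0000000000000003807,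
  0xc010440000000c1800018000000001800000000180001830000000220803]

theorem mem_P1 (m : Fin 2) (r : Rt) : r ∈ P1 m ↔ (M1 m).testBit r = true := by
  simp only [P1, Set.mem_setOf_eq, A_eq, w_val]
  revert m r
  decide +kernel

theorem mem_P2 (m : Fin 2) (r : Rt) : r ∈ P2 m ↔ (M2 m).testBit r = true := by
  simp only [P2, Set.mem_setOf_eq, A_eq]
  revert m r
  decide +kernel

theorem mem_Ph (m : Fin 2) (r : Rt) : r ∈ Ph m ↔ (M1 m ||| M2 m).testBit r = true := by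
  rw [Nat.testBit_or, Bool.or_eq_true, ← mem_P1, ← mem_P2]; rfl

theorem par_eq (y : Fin 8 → ℤ) (r : Rt) : par y r = ((∑ i, y i * tabE8.car i r : ℤ) : ZMod 2) := by
  simp only [par, tb8.car]

end C1

open C1

theorem w_w (r : Rt) : w (w r) = c8.neg r := Fin.ext (by
  rw [w_val, w_val, neg_val]; revert r; decide +kernel)

theorem A_symm (r s : Rt) : c8.A r s = c8.A s r := c8.A_symm_of_len (by rw [len, len])

theorem A_w_left (r s : Rt) : c8.A (w r) s = - c8.A r (w s) := by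
  rw [← RootSys.A_aut wA, w_w, RootSys.A_neg_left]

theorem A_w_self (r : Rt) : c8.A r (w r) = 0 := by
  have := A_w_left r r
  rw [A_symm] at this
  omega

theorem w_mem_Cw : w ∈ Cw := mem_Cw.2 ⟨w_mem_W, fun _ => rfl⟩

theorem conj_rr {u : Equiv.Perm Rt} (hu : u ∈ Cw) (a : Rt) : u * rr a * u⁻¹ = rr (u a) := by
  rw [rr, rr, ← (mem_Cw.1 hu).2, ← c8.conj_refl (aut hu), ← c8.conj_refl (aut hu)]; group

theorem vec_rr (a r : Rt) :
    c8.vec (rr a r) = c8.vec r - c8.A a r • c8.vec a - c8.A (w a) r • c8.vec (w a) := by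
  rw [rr, Equiv.Perm.mul_apply, c8.vec_refl, c8.vec_refl, c8.A_refl_right, A_w_self]; module

theorem C1.A_rr (u a r : Rt) :
    c8.A u (rr a r) = c8.A u r - c8.A a r * c8.A u a - c8.A (w a) r * c8.A u (w a) := by
  rw [RootSys.A_def, vec_rr, map_sub, map_sub, map_smul, map_smul]; rfl

theorem C1.rr_w (a : Rt) : rr (w a) = rr a := Equiv.ext fun r => c8.vec_inj (by
  rw [vec_rr, vec_rr, w_w, RootSys.A_neg_left, c8.vec_neg]; module)

theorem C1.rr_neg (a : Rt) : rr (c8.neg a) = rr a := by rw [← w_w, rr_w, rr_w]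

theorem rr_mem_Cw (a : Rt) : rr a ∈ Cw :=
  ⟨mul_mem (c8.refl_mem_W _) (c8.refl_mem_W _), Subgroup.mem_centralizer_singleton_iff.2 (by
    rw [eq_comm, ← mul_inv_eq_iff_eq_mul, conj_rr w_mem_Cw, rr_w])⟩

theorem image_Qa {u : Equiv.Perm Rt} (hu : u ∈ Cw) (a : Rt) : u '' Qa a = Qa (u a) := by
  change u '' {a, c8.neg a, w a, c8.neg (w a)} = {u a, c8.neg (u a), w (u a), c8.neg (w (u a))}
  simp only [Set.image_insert_eq, Set.image_singleton, RootSys.neg_aut (aut hu), (mem_Cw.1 hu).2]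

theorem W0_le (m : Fin 2) : W0 m ≤ Cw :=
  (Subgroup.closure_le _).2 (by rintro _ ⟨j, rfl⟩; exact rr_mem_Cw _)

theorem R_w (r : Rt) : R (w r) = (3 : ZMod 5) • R r := funext fun a => by
  rw [Pi.smul_apply, R_eq, R_eq, w_val]; revert r a; decide +kernel

theorem R_neg (r : Rt) : R (c8.neg r) = - R r := by rw [← Rl_vec, c8.vec_neg, map_neg, Rl_vec]

theorem R_ne (r : Rt) : R r ≠ 0 := by
  simp only [Ne, funext_iff, R_eq]; revert r; decide +kernel

theorem R_inj : Function.Injective R := fun r s h => by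
  have : allLt 240 (fun r => allLt 240 fun s => Nat.beq r s ||
      !allLt 4 fun a => Nat.beq (RN r a % 5) (RN s a % 5)) = true := by decide +kernel
  have := allLt_iff.1 (allLt_iff.1 this r r.2) s s.2
  rw [(allLt_iff (n := 4)).2 fun a ha => Nat.beq_eq.mpr ((ZMod.natCast_eq_natCast_iff' _ _ 5).1
    ((R_eq r ⟨a, ha⟩).symm.trans ((congrFun h _).trans (R_eq s ⟨a, ha⟩))))] at this
  exact Fin.ext (by simpa using this)

theorem R_β0 (j : Fin 4) : R (β 0 j) = Pi.single j 1 := funext fun a => by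
  rw [R_eq]; revert j a; decide +kernel

theorem R_cv (a r : Rt) : R r ⬝ᵥ cv a = ((c8.A a r + 3 * c8.A (w a) r : ℤ) : ZMod 5) := by
  have := c8.lin_ext (f := (dotProductBilin ℤ ℤ).flip (cv a) ∘ₗ Rl)
    (g := Algebra.linearMap ℤ (ZMod 5) ∘ₗ (c8.cor a + (3 : ℤ) • c8.cor (w a))) fun i => by
      change Rl _ ⬝ᵥ cv a = ((c8.A a _ + 3 * c8.A (w a) _ : ℤ) : ZMod 5)
      simp only [Rl_vec, dotProduct, cv, R_eq, A_eq, w_val, tb8.sim]
      revert a i
      decide +kernel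
  exact Rl_vec r ▸ LinearMap.congr_fun this (c8.vec r)

theorem R_rr (a r : Rt) : R (rr a r) = R r - (R r ⬝ᵥ cv a) • R a := by
  rw [R_cv, ← Rl_vec, vec_rr, map_sub, map_sub, map_smul, map_smul, Rl_vec, Rl_vec, Rl_vec, R_w]
  funext j
  simp
  ring

theorem mem_Qa_iff (a r : Rt) : r ∈ Qa a ↔ ∀ k : V5, R a ⬝ᵥ k = 0 → R r ⬝ᵥ k = 0 := by
  refine ⟨by rintro (rfl | rfl | rfl | rfl) k h <;> simp [R_neg, R_w, h], fun h => ?_⟩
  obtain ⟨j, hj⟩ := Function.ne_iff.1 (R_ne a)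
  obtain ⟨t, e⟩ : ∃ t : ZMod 5, R r = t • R a := have := Fact.mk Nat.prime_five
    ⟨R r j / R a j, funext fun i => by
      have := h (Pi.single i (R a j) - Pi.single j (R a i)) (by simp [mul_comm])
      rw [dotProduct_sub, dotProduct_single, dotProduct_single, sub_eq_zero] at this
      rw [Pi.smul_apply, smul_eq_mul, div_mul_eq_mul_div, eq_div_iff hj, this]⟩
  rcases (by decide : ∀ t : ZMod 5, t = 0 ∨ t = 1 ∨ t = -1 ∨ t = 3 ∨ t = -3) t with rfl | rfl | rfl | rfl | rfl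
  exacts [absurd (e.trans (zero_smul _ _)) (R_ne r), .inl (R_inj (by simpa using e)),
    .inr (.inl (R_inj (by simpa [R_neg] using e))), .inr (.inr (.inl (R_inj (by rw [e, R_w])))),
    .inr (.inr (.inr (R_inj (by rw [e, R_neg, R_w, neg_smul]))))]

theorem C1.A_bd (r s : Rt) : -2 ≤ c8.A r s ∧ c8.A r s ≤ 2 := by
  by_cases a : s = r
  · simp [a]
  by_cases b : s = c8.neg r
  · simp [b]
  have := c8.abs_A_le_of_len (by rw [len, len]) a b
  omega

theorem adm_of {b : Fin 4 → Rt} (h : ∀ i j, R (b i) ⬝ᵥ cv (b j) = (CD i j : ZMod 5)) : Adm b := fun i j => by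
  have x := h i j
  have y := h j i
  rw [R_cv, A_symm, A_symm (w _), ZMod.intCast_eq_intCast_iff'] at x
  rw [R_cv, A_w_left, (by decide : ∀ i j, CD j i = CD i j), ZMod.intCast_eq_intCast_iff'] at y
  have := A_bd (b i) (b j)
  have := A_bd (b i) (w (b j))
  have := (by decide : ∀ i j, -2 ≤ CD i j ∧ CD i j ≤ 2) i j
  omega

theorem adm_β (m : Fin 2) : Adm (β m) := by
  simp only [Adm, A_eq, w_val]; revert m; decide +kernel

theorem Adm.map {b : Fin 4 → Rt} (h : Adm b) {u : Equiv.Perm Rt} (hu : u ∈ Cw) :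
    Adm fun j => u (b j) := fun i j => by
  rw [← (mem_Cw.1 hu).2, RootSys.A_aut (aut hu), RootSys.A_aut (aut hu)]; exact h i j

theorem Adm.span {b : Fin 4 → Rt} (h : Adm b) (k : V5) :
    ∃ t : Fin 4 → ZMod 5, k = ∑ j, t j • cv (b j) := by
  refine ((Finite.surjective_of_injective (f := Fintype.linearCombination (ZMod 5) fun j => cv (b j))
    ((injective_iff_map_eq_zero _).2 fun t e => ?_)) k).imp fun _ => Eq.symm
  refine (by decide +kernel : ∀ t : V5, (∀ i, ∑ j, t j * (CD j i : ZMod 5) = 0) → t = 0) t fun i => ?_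
  simpa [Fintype.linearCombination_apply, dotProduct_sum, R_cv, (h _ _).1, A_w_left, (h _ _).2] using
    congrArg (R (b i) ⬝ᵥ ·) e

theorem β_mem_P1 (m : Fin 2) (j : Fin 4) : β m j ∈ P1 m := fun i => (A_symm _ _).trans (adm_β m j i).2

theorem w_mem_P1 {m : Fin 2} {r : Rt} : w r ∈ P1 m ↔ r ∈ P2 m :=
  forall_congr' fun j => by rw [RootSys.A_aut wA]

theorem w_mem_P2 {m : Fin 2} {r : Rt} : w r ∈ P2 m ↔ r ∈ P1 m :=
  forall_congr' fun j => by rw [A_w_left, neg_eq_zero]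

theorem neg_mem_P1 {m : Fin 2} {r : Rt} : c8.neg r ∈ P1 m ↔ r ∈ P1 m := by simp [P1]

theorem neg_mem_P2 {m : Fin 2} {r : Rt} : c8.neg r ∈ P2 m ↔ r ∈ P2 m := by simp [P2]

theorem C1.w_Ph {m : Fin 2} {r : Rt} : w r ∈ Ph m ↔ r ∈ Ph m := (or_congr w_mem_P1 w_mem_P2).trans or_comm

theorem C1.neg_Ph {m : Fin 2} {r : Rt} : c8.neg r ∈ Ph m ↔ r ∈ Ph m := or_congr neg_mem_P1 neg_mem_P2

theorem Qa_subset {m : Fin 2} {a : Rt} (h : a ∈ Ph m) : Qa a ⊆ Ph m := by
  rintro _ (rfl | rfl | rfl | rfl) <;> simpa only [neg_Ph, w_Ph]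

theorem A_P12 {m : Fin 2} {r s : Rt} (hr : r ∈ P1 m) (hs : s ∈ P2 m) : c8.A r s = 0 := by
  rw [mem_P1] at hr
  rw [mem_P2] at hs
  rw [A_eq]
  revert s
  revert m r
  decide +kernel

theorem mem_Ph_iff (m : Fin 2) (r : Rt) : r ∈ Ph m ↔ ∀ k, par (yv m k) r = 0 := by
  simp only [mem_Ph, par_eq]; revert m r; decide +kernel

theorem C1.par_rr (y : Fin 8 → ℤ) (a r : Rt) :
    par y (rr a r) = par y r - c8.A a r * par y a - c8.A (w a) r * par y (w a) := by
  simp only [par, A_rr, mul_sub, Finset.sum_sub_distrib, mul_left_comm (y _), ← Finset.mul_sum]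
  push_cast
  rfl

theorem par_of_rr {b : Fin 4 → Rt} (hb : Adm b) (y : Fin 8 → ℤ) (j : Fin 4)
    (h : ∀ r, par y (rr (b j) r) = par y r) : par y (b j) = 0 := by
  obtain ⟨k, e⟩ := (by decide : ∀ j, ∃ k, CD j k = -1) j
  simpa [par_rr, A_w_left, (hb _ _).1, (hb _ _).2, e] using h (b k)

/-- `2 α_i` is an integral combination of the `β m j` and `w (β m j)`. -/
theorem two_simple (m : Fin 2) (i : Fin 8) : ∃ s t : Fin 4 → ℤ, (2 : ℤ) • c8.vec (c8.simple i) =
    ∑ j, (s j • c8.vec (β m j) + t j • c8.vec (w (β m j))) :=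
  ⟨![![![-1, -2, -2, -1], ![2, 0, 0, 0], ![0, 0, 2, 0], ![0, 2, 0, 0], ![0, 0, 0, 2], ![-1, -2, -1, -2],
      ![0, 0, 0, 0], ![0, 0, 0, 0]], ![![-1, -2, -2, -1], ![2, 0, 0, 0], ![0, 0, 1, 1], ![0, 2, 0, 0],
      ![0, 0, 1, 1], ![-1, -2, -2, -1], ![0, 0, 1, -1], ![0, 0, 0, 0]]] m i,
    ![![![1, 0, 0, -1], ![0, 0, 0, 0], ![0, 0, 0, 0], ![0, 0, 0, 0], ![0, 0, 0, 0], ![-1, 0, 1, 0],
      ![0, 0, -2, 0], ![0, -2, 0, 0]], ![![1, 0, -1, 0], ![0, 0, 0, 0], ![0, 0, 1, -1], ![0, 0, 0, 0],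
      ![0, 0, -1, 1], ![-1, 0, 1, 0], ![0, 0, -1, -1], ![0, -2, 0, 0]]] m i, funext fun k => by
    simp only [Pi.smul_apply, Finset.sum_apply, Pi.add_apply, tb8.vec, tb8.sim, w_val, smul_eq_mul]
    revert m i k
    decide +kernel⟩

end CF.Oq
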