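import Cfsg.Agent.Oq.N

/-! Subgroups `Ω₈⁺(4)` of `E₈(2)`: the torus. -/

set_option autoImplicit false

namespace CF.Oq

open CF.Chev CF.BN Cfsg Cfsg.Lie Matrix

namespace Cx

variable (c : Cx)

/-- The powers of the root of unity. -/
noncomputable def pw (z : ZMod 5) : c.Kˣ := c.μ ^ z.val

theorem pw_int (a : ℤ) : c.pw (a : ZMod 5) = c.μ ^ a := by
  rw [pw, ← zpow_natCast, ZMod.val_intCast, ← c.hμ, zpow_mod_orderOf]

theorem pw_add (a b : ZMod 5) : c.pw (a + b) = c.pw a * c.pw b := by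
  rw [← ZMod.intCast_zmod_cast a, ← ZMod.intCast_zmod_cast b, ← Int.cast_add, pw_int, pw_int, pw_int,
    _root_.zpow_add]

theorem pw_inj : Function.Injective c.pw := fun a b h => by
  rw [pw, pw, pow_inj_mod, c.hμ, Nat.mod_eq_of_lt (ZMod.val_lt a), Nat.mod_eq_of_lt (ZMod.val_lt b)] at h
  exact ZMod.val_injective 5 h

theorem pw_zero : c.pw 0 = 1 := by simp [pw]

theorem pw_zsmul (a : ℤ) (z : ZMod 5) : c.pw (a • z) = c.pw z ^ a := by
  rw [← ZMod.intCast_zmod_cast z, zsmul_eq_mul, ← Int.cast_mul, pw_int, pw_int, ← _root_.zpow_mul, mul_comm]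

theorem pw_sum {I : Type*} (s : Finset I) (f : I → ZMod 5) :
    c.pw (∑ i ∈ s, f i) = ∏ i ∈ s, c.pw (f i) := by
  classical
  induction s using Finset.induction_on with
  | empty => simp [pw_zero]
  | insert i s hi ih => rw [Finset.sum_insert hi, Finset.prod_insert hi, pw_add, ih]

theorem exists_pw {t : c.Kˣ} (h : t ^ 5 = 1) : ∃ z, c.pw z = t := by
  have hp : IsPrimitiveRoot (c.μ : c.K) 5 := IsPrimitiveRoot.coe_units_iff.2 (c.hμ ▸ IsPrimitiveRoot.orderOf c.μ)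
  obtain ⟨i, -, hi⟩ := hp.eq_pow_of_pow_eq_one (ξ := (t : c.K)) (by rw [← Units.val_pow_eq_pow_val, h]; rfl)
  exact ⟨((i : ℤ) : ZMod 5), by rw [pw_int, zpow_natCast]; exact Units.ext hi⟩

/-- The coordinates of the torus elements. -/
noncomputable def ec (k : V5) : Fin 8 → c.Kˣ := fun i => c.μ ^ ∑ a, (k a).val * Yv a i

theorem ep_eq (k : V5) : c.ep k = c.h.r3.tor (c.ec k) := rfl

theorem rv_ec (k : V5) (r : Rt) : rv c8 (c.ec k) r = c.pw (R r ⬝ᵥ k) := by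
  have : R r ⬝ᵥ k = ((∑ i, ((∑ a, (k a).val * Yv a i : ℕ) : ℤ) * c8.A (c8.simple i) r : ℤ) : ZMod 5) := by
    simp only [R, dotProduct, Int.cast_sum, Int.cast_mul, Nat.cast_sum, Nat.cast_mul, Int.cast_natCast,
      ZMod.natCast_zmod_val, Finset.sum_mul]
    rw [Finset.sum_comm]
    exact Finset.sum_congr rfl fun i _ => Finset.sum_congr rfl fun a _ => by ring
  rw [this, pw_int, rv_eq, zpow_sum']
  exact Finset.prod_congr rfl fun i _ => by rw [ec, _root_.zpow_mul, zpow_natCast]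

theorem tor_conj_x (a : Fin 8 → c.Kˣ) (r : Rt) (t : c.K) :
    c.h.r3.tor a * c.ρ.x r t * (c.h.r3.tor a)⁻¹ = c.ρ.x r (rv c8 a r * t) :=
  c.h.r3.actsT_tor a r t

theorem tor_eq_iff {a b : Fin 8 → c.Kˣ} :
    c.h.r3.tor a = c.h.r3.tor b ↔ ∀ r, rv c8 a r = rv c8 b r := by
  refine ⟨fun h r => by rw [c.h.inj h], fun h => c.eq_of_conj_x fun r t => ?_⟩
  rw [tor_conj_x, tor_conj_x, h]

theorem ep_add (k l : V5) : c.ep (k + l) = c.ep k * c.ep l := by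
  rw [ep_eq, ep_eq, ep_eq, ← map_mul, tor_eq_iff]
  intro r
  rw [rv_mul, rv_ec, rv_ec, rv_ec, dotProduct_add, pw_add]

theorem ep_mem_H (k : V5) : c.ep k ∈ c.ρ.H := tor_mem_H _ _

theorem rv_ep (k : V5) (r : Rt) :
    rv c8 (fun i => c.μ ^ ∑ a, (k a).val * Yv a i) r = c.μ ^ (R r ⬝ᵥ k).val := c.rv_ec k r

theorem ep_conj_x (k : V5) (r : Rt) (t : c.K) :
    c.ep k * c.ρ.x r t * (c.ep k)⁻¹ = c.ρ.x r ((c.μ ^ (R r ⬝ᵥ k).val : c.Kˣ) * t) := by
  rw [ep_eq, tor_conj_x, rv_ec, pw]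

theorem ep_inj : Function.Injective c.ep := fun k l h => funext fun j => by
  have := (c.tor_eq_iff (a := c.ec k) (b := c.ec l)).1 h (β 0 j)
  rw [rv_ec, rv_ec, R_β0, single_one_dotProduct, single_one_dotProduct] at this
  exact c.pw_inj this

theorem ep_zero : c.ep 0 = 1 := by
  have := c.ep_add 0 0
  rwa [add_zero, left_eq_mul] at this

theorem ep_neg (k : V5) : c.ep (-k) = (c.ep k)⁻¹ :=
  eq_inv_of_mul_eq_one_left (by rw [← ep_add, neg_add_cancel, ep_zero])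

theorem ep_nsmul (n : ℕ) (k : V5) : c.ep (n • k) = c.ep k ^ n := by
  induction n with
  | zero => rw [zero_smul, ep_zero, pow_zero]
  | succ n ih => rw [succ_nsmul, ep_add, ih, pow_succ]

theorem conj_tor_iff {g : c.G} {u : Equiv.Perm Rt} (h : c.ρ.NW g u) (a b : Fin 8 → c.Kˣ) :
    g * c.h.r3.tor a * g⁻¹ = c.h.r3.tor b ↔ ∀ r, rv c8 b (u r) = rv c8 a r := by
  rw [conj_tor _ h.acts, tor_eq_iff]
  refine ⟨fun e r => by rw [← e, rv_Mw h.mem_Aut], fun e r => ?_⟩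
  obtain ⟨r, rfl⟩ := u.surjective r
  rw [e, rv_Mw h.mem_Aut]

theorem conj_ep_iff {g : c.G} {u : Equiv.Perm Rt} (h : c.ρ.NW g u) (k k' : V5) :
    g * c.ep k * g⁻¹ = c.ep k' ↔ ∀ r, R (u r) ⬝ᵥ k' = R r ⬝ᵥ k := by
  simp only [ep_eq, c.conj_tor_iff h, rv_ec, c.pw_inj.eq_iff]

theorem rv_sq (a : Fin 8 → c.Kˣ) (r : Rt) : rv c8 (a ^ 2) r = rv c8 a r ^ 2 := by
  rw [sq, rv_mul, sq]

theorem tor_mem_Γ {a : Fin 8 → c.Kˣ} :
    c.h.r3.tor a ∈ c.Γ ↔ ∀ r, rv c8 a (w r) ^ 2 = rv c8 a r := by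
  rw [mem_Γ, σ_tor, eq_comm, c.conj_tor_iff (c.nW_ν w_mem_W)]
  simp only [rv_sq]

theorem ep_mem_Γ (k : V5) : c.ep k ∈ c.Γ := (c.tor_mem_Γ (a := c.ec k)).2 fun r => by
  rw [rv_ec, rv_ec, sq, ← pw_add, R_w, smul_dotProduct, smul_eq_mul]
  refine congrArg _ ?_
  generalize R r ⬝ᵥ k = z
  revert z
  decide

/-- The value of a character on a vector. -/
theorem rv_lin (a : Fin 8 → c.Kˣ) (i : Fin 8) {s t : Fin 4 → ℤ} {b b' : Fin 4 → Rt}
    (h : (2 : ℤ) • c8.vec (c8.simple i) = ∑ j, (s j • c8.vec (b j) + t j • c8.vec (b' j))) :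
    rv c8 a (c8.simple i) ^ 2 = ∏ j, (rv c8 a (b j) ^ s j * rv c8 a (b' j) ^ t j) := by
  have e := congrArg (c8.torChar a).ev h
  simp only [RootSys.torChar_ev, map_sum, map_add, map_smul, smul_eq_mul, zpow_sum'] at e
  simp only [rv, RootSys.torChar_ev, ← Finset.prod_pow, ← Finset.prod_zpow, ← Finset.prod_mul_distrib,
    ← _root_.zpow_mul]
  rw [Finset.prod_comm]
  refine Eq.trans (Finset.prod_congr rfl fun x _ => ?_) (e.trans (Finset.prod_congr rfl fun x _ =>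
    Finset.prod_congr rfl fun y _ => ?_))
  · rw [mul_comm, _root_.zpow_mul, zpow_ofNat]
  · rw [_root_.zpow_add, mul_comm (s y), mul_comm (t y)]

theorem rv_ext {a b : Fin 8 → c.Kˣ} (h : ∀ i, rv c8 a (c8.simple i) = rv c8 b (c8.simple i)) :
    c.h.r3.tor a = c.h.r3.tor b := by
  have : c8.torChar (a * b⁻¹) = 1 := c8.char_eq_one_of_simple fun j => by
    have := rv_mul (C := c8) a b⁻¹ (c8.simple j)
    rwa [rv_inv, h, mul_inv_cancel] at this
  rw [map_mul, map_inv, mul_inv_eq_one] at this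
  exact c.tor_eq_iff.2 fun r => by rw [rv, rv, this]

theorem exists_ep {g : c.G} (h1 : g ∈ c.Γ) (h2 : g ∈ c.ρ.H) : ∃ k, c.ep k = g := by
  obtain ⟨a, rfl⟩ := c.h.r3.range_tor.ge h2
  have h3 := c.tor_mem_Γ.1 h1
  have h4 : ∀ r, rv c8 a r ^ 5 = 1 := fun r => by
    obtain ⟨r, rfl⟩ := (w * w).surjective r
    have : rv c8 a (w (w r)) * rv c8 a r = 1 := by
      rw [w_w, rv, rv, c8.vec_neg, Char.ev_neg, inv_mul_cancel]
    rw [← h3 r, ← h3 (w r)] at this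
    rw [← this, Equiv.Perm.mul_apply]
    group
  choose z hz using fun r => c.exists_pw (h4 r)
  refine ⟨fun j => z (β 0 j), c.rv_ext (a := c.ec _) fun i => ?_⟩
  have h5 : ∀ j, rv c8 (c.ec fun j => z (β 0 j)) (β 0 j) = rv c8 a (β 0 j) := fun j => by
    rw [rv_ec, R_β0, single_one_dotProduct, hz]
  have sq : ∀ x y : c.Kˣ, x ^ 2 = y ^ 2 → x = y := fun x y h => Units.ext
    ((frobenius c.K 2).injective (by simpa only [frobenius_def, ← Units.val_pow_eq_pow_val] using congrArg Units.val h))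
  obtain ⟨s, t, e⟩ := two_simple 0 i
  refine sq _ _ ?_
  rw [c.rv_lin _ i e, c.rv_lin _ i e]
  refine Finset.prod_congr rfl fun j _ => ?_
  rw [h5, sq (rv c8 (c.ec _) (w (β 0 j))) (rv c8 a (w (β 0 j)))]
  rw [h3, (c.tor_mem_Γ (a := c.ec _)).1 (c.ep_mem_Γ _), h5]

theorem ep_cv_mem (a : Rt) : c.ep (cv a) ∈ c.ρ.U (Qa a) := by
  have h2 : R a ⬝ᵥ cv a = 2 := by
    rw [R_cv, c8.A_self, A_w_left, A_w_self]; rfl
  have h1 := (c.conj_ep_iff (c.nW_ν (rr_mem_Cw a).1) (cv a) (- cv a)).2 fun r => by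
    rw [R_rr, dotProduct_neg, sub_dotProduct, smul_dotProduct, h2, smul_eq_mul]; ring
  have h3 : c.ep (cv a) = (c.ν (rr a) * (c.ep (cv a) * (c.ν (rr a))⁻¹ * (c.ep (cv a))⁻¹)) ^ 2 := by
    rw [← mul_assoc, ← mul_assoc, h1, ← ep_neg, ← ep_add, ← ep_nsmul]
    refine congrArg _ (funext fun j => ?_)
    simp only [Pi.smul_apply, Pi.add_apply, Pi.neg_apply]
    generalize cv a j = z
    revert z
    decide
  rw [h3]
  exact pow_mem (mul_mem (c.ν_rr_mem a)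
    (StRep.H_conj_mem_U (c.ep_mem_H _) (inv_mem (c.ν_rr_mem a)))) 2

theorem ep_mem_Hm (m : Fin 2) (k : V5) : c.ep k ∈ c.Hm m := by
  refine Subgroup.mem_inf.2 ⟨?_, c.ep_mem_Γ k⟩
  obtain ⟨t, rfl⟩ := (adm_β m).span k
  refine Finset.sum_induction _ (fun k => c.ep k ∈ c.D m) (fun a b ha hb => ?_) ?_ fun j _ => ?_
  · rw [ep_add]; exact mul_mem ha hb
  · rw [ep_zero]; exact one_mem _
  · rw [← ZMod.natCast_zmod_val (t j), Nat.cast_smul_eq_nsmul, ep_nsmul]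
    exact pow_mem (c.ρ.U_mono (Qa_subset (Or.inl (β_mem_P1 m j))) (c.ep_cv_mem _)) _

end Cx

end CF.Oq
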