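import Cfsg.Agent.Oq.A

/-! Subgroups `Ω₈⁺(4)` of `E₈(2)`: the model. -/

set_option autoImplicit false

namespace CF.Oq

open CF.Chev CF.BN Cfsg Cfsg.Lie Matrix

theorem exists_cx {X : Type*} [Group X] (L : LS.{0} c8 1 2 2 1 X) (hX : ¬ 5 ^ 6 ∣ Nat.card X) :
    ∃ c : Cx, c.Ok ∧ Nonempty (c.Γ ≃* X) := by
  have : NeZero ((5 : ℕ) : L.K) := ⟨fun e => absurd ((CharP.cast_eq_zero_iff L.K 2 5).1 e) (by decide)⟩
  obtain ⟨z, hz⟩ := HasEnoughRootsOfUnity.exists_primitiveRoot L.K 5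
  have hμ : orderOf (hz.isUnit (by decide)).unit = 5 :=
    (hz.isUnit_unit (by decide)).eq_orderOf.symm
  let c : Cx := ⟨L.K, L.G, L.ρ, L.h, by simpa using L.big, _, hμ⟩
  have hσ : c.σ = L.T.σ := StRep.hom_ext_simple L.h.top
    (fun i t => (c.σ_x _ t).trans (by rw [L.gr.σ_pos, L.φ_eq]; rfl))
    (fun i t => (c.σ_x _ t).trans (by rw [L.gr.σ_neg, L.φ_eq]; rfl))
  obtain ⟨y, hy⟩ := L.frob.exists_twist L.big (n := c.ν w) (Univ.nw_mem_Alg _)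
  have e : c.Γ.map (MulAut.conj y⁻¹).toMonoidHom = Fx L.T.σ := by
    ext g
    refine ⟨?_, fun hg => ⟨y * g * y⁻¹, ?_, by simp [mul_assoc]⟩⟩
    · rintro ⟨g, hg, rfl⟩
      have := (hy g).2 (hσ ▸ c.mem_Γ.1 hg)
      simpa using this
    · refine c.mem_Γ.2 ?_
      rw [hσ]
      exact (hy _).1 (by simpa [mul_assoc] using hg)
  have φ : c.Γ ≃* X := ((c.Γ.equivMapOfInjective _ (MulAut.conj y⁻¹).injective).trans
    (MulEquiv.subgroupCongr e)).trans (MulEquiv.ofBijective L.θ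
      ⟨L.θ.ker_eq_bot_iff.1 (Subgroup.card_eq_one.1 L.card_ker), L.surj⟩)
  exact ⟨c, by rwa [Cx.Ok, Nat.card_congr φ.toEquiv], ⟨φ⟩⟩

end CF.Oq
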