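import Cfsg.Agent.Oq.A
import Cfsg.Agent.Chev.Invol

/-! The grading lemma. -/

set_option autoImplicit false

namespace CF.Oq

open CF.Chev CF.BN Cfsg Cfsg.Lie Matrix

theorem Grx.graded {B ι : Type} [Fintype B] [DecidableEq B] [Fintype ι] [DecidableEq ι]
    {C : ChevBasis B ι} {K G A : Type*} [Field K] [Group G] [AddCommGroup A] {ρ : StRep C K G}
    (hρ : ρ.Faithful) (φ : (B → ℤ) →+ A) {S : Set ι} (hS : ∀ s ∈ S, φ (C.vec s) = 0) {g : G}
    (hg : g ∈ ρ.U S) {u : Equiv.Perm ι} (hu : ρ.NW g u) (r : ι) : φ (C.vec (u r)) = φ (C.vec r) := by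
  obtain ⟨f, hf⟩ := hρ
  have key : ∀ a b, φ (C.wt a) ≠ φ (C.wt b) → (f g).val a b = 0 := by
    refine ρ.U_induction (p := fun g => ∀ a b, φ (C.wt a) ≠ φ (C.wt b) → (f g).val a b = 0)
      (fun a b h => ?_) (fun g s t _ hs ih a b h => ?_) hg
    · rw [map_one, Units.val_one, one_apply_ne (mt (congrArg fun a => φ (C.wt a)) h)]
    rw [map_mul, Units.val_mul, mul_apply]
    refine Finset.sum_eq_zero fun c _ => ?_
    by_cases h1 : φ (C.wt a) = φ (C.wt c)
    swap
    · rw [ih a c h1, zero_mul]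
    rw [h1] at h
    have h2 : ∀ k, C.E K k s c b = 0 := fun k => by
      by_contra h3
      refine h ?_
      rw [C.EZ_graded C.M k s (a := c) (b := b) fun e => h3 (by simp [LieBasis.E, e])]
      rw [map_add, map_zsmul, hS s hs, smul_zero, add_zero]
    rw [hf, C.val_xG]
    simp [LieBasis.X, h2, one_apply_ne (mt (congrArg fun a => φ (C.wt a)) h)]
  by_contra h
  obtain ⟨c, hc⟩ := hu.ad_bv hf r
  have h1 := congrFun hc (.inr (u r))
  rw [LieBasis.mulVec_bv_apply, key (.inr (u r)) (.inr r) h] at h1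
  have h2 : c = 0 := by simpa [LieBasis.bv_apply] using h1.symm
  have h3 := congrArg ((f g⁻¹).val *ᵥ ·) hc
  simp only [h2, zero_smul, mulVec_zero, mulVec_mulVec, ← Units.val_mul, ← map_mul, inv_mul_cancel,
    map_one, Units.val_one, one_mulVec] at h3
  simpa [LieBasis.bv_apply] using congrFun h3 (.inr r)

theorem Cx.gr (c : Cx) {S : Set Rt} {y : Fin 8 → ℤ} (hS : ∀ s ∈ S, par y s = 0) {g : c.G}
    (hg : g ∈ c.ρ.U S) {u : Equiv.Perm Rt} (hu : c.ρ.NW g u) (r : Rt) : par y (u r) = par y r :=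
  Grx.graded c.h.faith ((Int.castAddHom (ZMod 2)).comp (∑ i, y i • c8.sp i).toAddMonoidHom)
    (by simpa [par, RootSys.A_simple] using hS) hg hu r |> fun h => by
      simpa [par, RootSys.A_simple] using h

end CF.Oq
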