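import Cfsg.Agent.Oq.N

/-! The two factors of the subsystem subgroup. -/

set_option autoImplicit false

namespace CF.Oq

open CF.Chev CF.BN Cfsg Cfsg.Lie Matrix

namespace I1x

/-- The diagram embedding. -/
def φ : Fin 4 → Fin 8 := ![1, 3, 2, 4]

/-- Words that move the standard subsystem. -/
def lv : Fin 2 → List (Fin 8) := ![[], [2, 0, 3, 1, 2, 3, 4, 5, 4, 3, 2, 1, 3, 0, 2]]

theorem inSub_iff (m : Fin 2) (r : Rt) : c8.InSub (Set.range φ) r ↔ c8.wp (lv m) r ∈ P1 m := by
  simp only [C1.mem_P1, wp_val, RootSys.InSub, tb8.vec, Set.mem_range]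
  revert m r
  decide +kernel

theorem univ_map {B ι : Type} [Fintype B] [DecidableEq B] [Fintype ι] [DecidableEq ι]
    {C : ChevBasis B ι} {K G G' : Type*} [Field K] [Group G] [Group G'] {ρ : StRep C K G}
    (h : Univ ρ) (e : G ≃* G') : Univ (ρ.map e.toMonoidHom) :=
  ⟨StRep.faithful_map_equiv h.faith e, StRep.map_Gp_eq_top h.top e.surjective, h.r3.map _,
    h.r3.tor_injective_map h.inj e.injective⟩

end I1x

open I1x

namespace Cx

variable (c : Cx)

theorem exists_d4 (m : Fin 2) : ∃ (ρ₁ : StRep cD4 c.K (c.ρ.U (P1 m))) (f : Fin 24 → Rt), Univ ρ₁ ∧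
    (∀ r t, (ρ₁.x r t : c.G) = c.ρ.x (f r) t) ∧ ∀ r, f (cD4.neg r) = c8.neg (f r) := by
  obtain ⟨E, hE⟩ := Emb.exists_of_diagram (C := cD4) (C' := c8) φ fun i j => by
    rw [carD4', ← RootSys.A_simple_simple, tb8.car, tb8.sim]; revert i j; decide +kernel
  have hv := c8.wp_mem_W (lv m)
  have h0 : Univ (c.ρ.pull E).res := ⟨StRep.faithful_pull_res E c.h.faith goodD4.conn hE,
    StRep.res_Gp _, (c.h.r3.pull E).codRestrict _ _, fun a b e =>
      c.h.r3.pull_tor_injective E c.h.inj hE (by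
        have := congrArg (Subgroup.subtype _) e
        rwa [← StRep.R3.map_tor, ← StRep.R3.map_tor] at this)⟩
  have e : (c.ρ.pull E).Gp.map (MulAut.conj (c.ν (c8.wp (lv m)))).toMonoidHom = c.ρ.U (P1 m) := by
    rw [StRep.pull_Gp]
    refine ((c.nW_ν hv).acts.map_U _).trans (congrArg _ (Set.ext fun r => ?_))
    obtain ⟨r, rfl⟩ := (c8.wp (lv m)).surjective r
    rw [(Equiv.injective _).mem_set_image, E.mem_range_iff hE, inSub_iff]
  refine ⟨_, fun r => c8.wp (lv m) (E.f r), univ_map h0 (((MulAut.conj _).subgroupMap _).trans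
    (MulEquiv.subgroupCongr e)), fun r t => ?_, fun r => by
      simp only [E.f_neg, c8.neg_aut (c8.W_le_Aut hv)]⟩
  refine (c.ν_conj hv _ _).trans (congrArg _ ?_)
  rw [E.val_eU]
  rcases Int.units_eq_one_or (E.ε r) with h | h <;> simp [h, CharTwo.neg_eq]

theorem comm12 (m : Fin 2) {x y : c.G} (hx : x ∈ c.ρ.U (P1 m)) (hy : y ∈ c.ρ.U (P2 m)) :
    x * y = y * x := by
  refine c.ρ.U_induction (p := fun x => Commute x y) (.one_left _)
    (fun _ r t _ hr ih => ih.mul_left ?_) hx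
  refine c.ρ.U_induction (p := Commute _) (.one_right _) (fun _ s u _ hs ih => ih.mul_right ?_) hy
  have h := A_P12 hr hs
  refine c.ρ.commute_of_none (fun e => by simp [e] at h) (fun v e => ?_) t u
  have h1 := c8.A_self v
  have h2 : ∀ a, c8.A a v = c8.A a s + c8.A a r := fun a => by simp only [c8.A_def, e, map_add]
  rw [h2, A_symm v, A_symm v, h2, h2, A_symm s r, h, c8.A_self, c8.A_self] at h1
  omega

end Cx

end CF.Oq
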