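import Cfsg.Agent.Oq.A
import Cfsg.Agent.Geom.Simple
import Cfsg.Agent.Comp.MatF

/-! The group of type `D₄` twisted by `-1`. -/

set_option autoImplicit false

namespace CF.Oq

open CF.Chev CF.BN Cfsg Cfsg.Lie Matrix

namespace I2x

theorem big_mono {K : Type*} [Field K] {m n : ℕ} (h : Big K (m + n)) : Big K m := by
  obtain ⟨hc, R, z, hz, hR⟩ := h
  have h1 := hz.comp_equiv finSumFinEquiv
  rw [← Sum.elim_comp_inl_inr (z ∘ finSumFinEquiv)] at h1
  generalize (z ∘ finSumFinEquiv) ∘ Sum.inl = y at h1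
  generalize (z ∘ finSumFinEquiv) ∘ Sum.inr = x at h1
  have h2 := h1.isAlgebraic
  rw [Set.Sum.elim_range, Set.union_comm, Algebra.adjoin_union_eq_adjoin_adjoin] at h2
  have h3 : IsTranscendenceBasis (Algebra.adjoin R (Set.range x)) y :=
    (AlgebraicIndependent.sumElim_iff.1 h1.1).2.isTranscendenceBasis_iff_isAlgebraic.2 h2
  exact ⟨hc, (IntermediateField.adjoin R (Set.range x)).toSubfield, y,
    IntermediateField.isTranscendenceBasis_adjoin_iff.2 h3, fun t N hN ht =>
      (IntermediateField.adjoin R (Set.range x)).algebraMap_mem ⟨t, hR t N hN ht⟩⟩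

theorem nw_conj {B ι : Type} [Fintype B] [DecidableEq B] [Fintype ι] [DecidableEq ι]
    {C : ChevBasis B ι} {K G : Type*} [Field K] [CharP K 2] [Group G] (ρ : StRep C K G) (l : List B)
    (r : ι) (t : K) : ρ.nw l * ρ.x r t * (ρ.nw l)⁻¹ = ρ.x (C.wp l r) t := by
  induction' l with i l ih
  · simp [StRep.nw]
  · have h := ρ.n_conj (C.simple i) 1 (C.wp l r) t
    have e : (C.eta (C.simple i) (C.wp l r) : K) = 1 := by
      rcases C.eta_eq (C.simple i) (C.wp l r) with h | h <;> simp [h, CharTwo.neg_eq]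
    rw [e, ← ih] at h
    simpa [StRep.nw, StRep.ns, RootSys.wp_cons, mul_assoc] using h

/-- A word for `-1`. -/
def l0 : List (Fin 4) := [0, 2, 3, 1, 0, 2, 3, 1, 0, 2, 3, 1]

theorem wp_l0 (r : Fin 24) : cD4.wp l0 r = cD4.neg r := by
  have H : TabOf cD4 tabD4 := tabOf certD4
  refine Fin.ext ?_
  rw [H.wp, H.neg]
  revert r
  decide +kernel

end I2x

open I2x

open CF.Geom CF.Classical in
theorem simple_Y (F : Type*) [Field F] [Fintype F] (hF : Fintype.card F = 4) :
    IsSimpleGroup (Y F) ∧ Subgroup.center (Y F) = ⊥ := by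
  classical
  have := (Comp.exists_omega_four hF).1
  have hQ := qPlus_nondegenerate (F := F) 4
  have h : Subgroup.center (Y F) = ⊥ := Subgroup.eq_bot_of_card_eq _
    ((card_center_omega hQ (by simp) (Or.inr (by simp)) (omegaToOG_injective _)
      (omegaToOG_range _)).trans (if_neg fun h => h.1 CharTwo.two_eq_zero))
  have : IsSimpleGroup (Y F ⧸ Subgroup.center (Y F)) := isSimpleGroup_POmega hQ (by simp)
  exact ⟨((QuotientGroup.quotientMulEquivOfEq h).trans QuotientGroup.quotientBot).symm.isSimpleGroup, h⟩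

theorem center_d4 {K G : Type*} [Field K] [CharP K 2] [Group G] {ρ : StRep cD4 K G} (h : Univ ρ) :
    Subgroup.center G = ⊥ := by
  obtain ⟨e⟩ := h.r3.nonempty_center_equiv h.faith h.top h.inj cenD4
  have : Subsingleton (Mu K 2) := ⟨fun a b => Subtype.ext (Units.ext (by
    have h1 : ∀ a : Mu K 2, ((a : Kˣ) : K) = 1 := fun a => by
      simpa [CharTwo.neg_eq] using congrArg Units.val (show (a : Kˣ) ^ 2 = 1 from a.2)
    rw [h1, h1]))⟩
  have := e.toEquiv.subsingleton
  exact Subgroup.eq_bot_of_subsingleton _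

theorem fix_d4 {K G : Type*} [Field K] [CharP K 2] [Group G] {ρ : StRep cD4 K G} (h : Univ ρ)
    (hK : Big K 248) {τ : G →* G} (hτ : ∀ r t, τ (ρ.x r t) = ρ.x (cD4.neg r) (t ^ 4))
    (F : Type*) [Field F] [Fintype F] (hF : Fintype.card F = 4) :
    Nonempty (Fx τ ≃* Y F) := by
  have := (Comp.exists_omega_four hF).1
  have := hK.1
  have e1 : h.fr 2 2 = (MulAut.conj (ρ.nw l0)).toMonoidHom.comp τ :=
    StRep.hom_ext h.top fun r t => by simp [h.fr_x 2, hτ, nw_conj, wp_l0]
  obtain ⟨y, hy⟩ := (h.isFrob_fr (p := 2) two_pos).exists_twist (big_mono (n := 220) hK)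
    (h.nw_mem_Alg l0)
  let _ := ZMod.algebra F 2
  let _ := ZMod.algebra K 2
  let i : F →+* K := (IsAlgClosed.lift (R := ZMod 2) (S := F) (M := K)).toRingHom
  have h0 : Univ (C := cD4) (goodD4.link.stRep F goodD4.noA1) := univ_stRep goodD4 F (torD4 F)
  have e2 : (Fx τ).map (MulAut.conj y⁻¹).toMonoidHom = (h0.fa h.r3 i).range := by
    ext g
    rw [h.mem_range_fa h0 (i := i) (h.fa_x h.r3 (iterateFrobenius K 2 2))
      fun t => by rw [← mem_range_iff_pow, hF, iterateFrobenius_def]; rfl,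
      Subgroup.mem_map_equiv]
    have := hy (y * g * y⁻¹)
    rw [show y⁻¹ * (y * g * y⁻¹) * y = g by group] at this
    refine Iff.trans ?_ this.symm
    rw [e1]
    simp only [MonoidHom.comp_apply, MulEquiv.coe_toMonoidHom, MulAut.conj_apply, mul_left_inj,
      mul_right_inj, MulAut.conj_symm_apply, inv_inv]
    rfl
  obtain ⟨E, hE⟩ := Emb.exists_of_diagram (C := cD4) (C' := cbD 4 (by omega)) id
    fun i j => (cbD_car (n := 4) _ i j).trans (by rw [carD4']; revert i j; decide +kernel)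
  obtain ⟨e3, -⟩ := StRep.exists_equiv_of_emb E goodD4.conn h0.faith h0.top (center_d4 h0)
    (faithful_omRepD F (n := 4) (by omega)) (omRepD_Gp F _) (simple_Y F hF).2 hE
    Function.surjective_id
  exact ⟨((MulAut.conj y⁻¹).subgroupMap _).trans ((MulEquiv.subgroupCongr e2).trans
    ((MonoidHom.ofInjective (h0.fa_injective h i)).symm.trans e3))⟩

end CF.Oq
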