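import Cfsg.Agent.Oq.I1
import Cfsg.Agent.Oq.I2

/-! The standard subgroups. -/

set_option autoImplicit false

namespace CF.Oq

open CF.Chev CF.BN Cfsg Cfsg.Lie Matrix

namespace Cx

variable (c : Cx)

theorem disj12 (m : Fin 2) {x : c.G} (hx : x ∈ c.ρ.U (P1 m)) (hy : x ∈ c.ρ.U (P2 m)) : x = 1 := by
  obtain ⟨ρ₁, -, h, -⟩ := c.exists_d4 m
  exact congrArg Subtype.val ((center_d4 h).le (Subgroup.mem_center_iff.2 fun y =>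
    Subtype.ext (c.comm12 m y.2 hy)) : (⟨x, hx⟩ : c.ρ.U (P1 m)) = 1)

theorem dec12 {m : Fin 2} {g : c.G} (hg : g ∈ c.D m) :
    ∃ x ∈ c.ρ.U (P1 m), ∃ y ∈ c.ρ.U (P2 m), g = x * y := by
  refine c.ρ.U_induction (p := fun g => ∃ x ∈ c.ρ.U (P1 m), ∃ y ∈ c.ρ.U (P2 m), g = x * y)
    ⟨1, one_mem _, 1, one_mem _, (mul_one _).symm⟩ ?_ hg
  rintro _ r t - (hr | hr) ⟨x, hx, y, hy, rfl⟩
  · exact ⟨_, mul_mem hx (c.ρ.x_mem_U hr t), y, hy, by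
      rw [mul_assoc, mul_assoc, c.comm12 m (c.ρ.x_mem_U hr t) hy]⟩
  · exact ⟨x, hx, _, mul_mem hy (c.ρ.x_mem_U hr t), mul_assoc _ _ _⟩

theorem not_swap {m : Fin 2} {u : Equiv.Perm Rt} (hu : u ∈ c8.W) (h : u (β m 0) ∈ P2 m) :
    c.ν u ∉ c.D m := fun h1 => by
  obtain ⟨x, hx, y, hy, e⟩ := c.dec12 h1
  have h2 := c.ρ.x_mem_U (β_mem_P1 m 0) (1 : c.K)
  have h3 := c.ν_conj hu (β m 0) 1
  rw [e, mul_assoc x, ← c.comm12 m h2 hy, _root_.mul_inv_rev, mul_assoc, mul_assoc,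
    mul_inv_cancel_left] at h3
  exact one_ne_zero (c.h.faith.x_eq_one_iff.1 (c.disj12 m
    (h3 ▸ mul_mem hx (mul_mem h2 (inv_mem hx))) (c.ρ.x_mem_U h 1)))

/-- The twisted Frobenius map. -/
noncomputable def Fw : c.G →* c.G := (MulAut.conj (c.ν w⁻¹)).toMonoidHom.comp c.σ

theorem Fw_x (r : Rt) (t : c.K) : c.Fw (c.ρ.x r t) = c.ρ.x (w⁻¹ r) (t ^ 2) :=
  (congrArg (fun g => c.ν w⁻¹ * g * (c.ν w⁻¹)⁻¹) (c.σ_x r t)).trans (c.ν_conj (inv_mem w_mem_W) _ _)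

theorem mem_Γ_iff {g : c.G} : g ∈ c.Γ ↔ c.Fw g = g := by
  change _ ↔ c.ν w⁻¹ * c.σ g * (c.ν w⁻¹)⁻¹ = g
  rw [c.mem_Γ, c.ν_inv w_mem_W, inv_inv, mul_assoc (c.ν w)⁻¹, inv_mul_eq_iff_eq_mul,
    eq_mul_inv_iff_mul_eq]

theorem Fw_mem {S T : Set Rt} (h : ∀ r, w r ∈ S → r ∈ T) {g : c.G} (hg : g ∈ c.ρ.U S) :
    c.Fw g ∈ c.ρ.U T :=
  (show c.ρ.U S ≤ (c.ρ.U T).comap c.Fw from c.ρ.U_le_iff.2 fun r hr t => by
    rw [Subgroup.mem_comap, c.Fw_x]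
    exact c.ρ.x_mem_U (h _ (by simpa using hr)) _) hg

theorem iso_Hm (m : Fin 2) (F : Type*) [Field F] [Fintype F] (hF : Fintype.card F = 4) :
    Nonempty (c.Hm m ≃* Y F) := by
  obtain ⟨ρ₁, f, h, h1, h2⟩ := c.exists_d4 m
  have a1 : ∀ {g}, g ∈ c.ρ.U (P1 m) → c.Fw g ∈ c.ρ.U (P2 m) := c.Fw_mem fun _ => w_mem_P1.1
  have a2 : ∀ {g}, g ∈ c.ρ.U (P2 m) → c.Fw g ∈ c.ρ.U (P1 m) := c.Fw_mem fun _ => w_mem_P2.1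
  let τ : c.ρ.U (P1 m) →* c.ρ.U (P1 m) :=
    ((c.Fw.comp c.Fw).comp (Subgroup.subtype _)).codRestrict _ fun g => a2 (a1 g.2)
  have hτ : ∀ {g}, g ∈ Fx τ ↔ c.Fw (c.Fw g) = g := Subtype.ext_iff
  obtain ⟨e⟩ := fix_d4 h c.big (τ := τ) (fun r t => Subtype.ext (by
    change c.Fw (c.Fw (ρ₁.x r t)) = _
    rw [h1, h1, c.Fw_x, c.Fw_x, h2, ← pow_mul, show w⁻¹ (w⁻¹ (f r)) = c8.neg (f r) by
      rw [Equiv.Perm.inv_eq_iff_eq, Equiv.Perm.inv_eq_iff_eq, w_w, c8.neg_neg]])) F hF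
  let j : Fx τ →* c.Hm m := MonoidHom.mk' (fun g => ⟨g.1.1 * c.Fw g.1.1, mul_mem
    (c.ρ.U_mono Set.subset_union_left g.1.2) (c.ρ.U_mono Set.subset_union_right (a1 g.1.2)),
      c.mem_Γ_iff.2 (by rw [map_mul, hτ.1 g.2, c.comm12 m g.1.2 (a1 g.1.2)])⟩) fun a b =>
    Subtype.ext (by
      simp only [Subgroup.coe_mul, map_mul, mul_assoc]
      rw [← mul_assoc b.1.1, c.comm12 m b.1.2 (a1 a.1.2), mul_assoc])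
  refine ⟨(MulEquiv.ofBijective j ⟨(injective_iff_map_eq_one j).2 fun g hg => ?_, ?_⟩).symm.trans e⟩
  · refine Subtype.ext (Subtype.ext (c.disj12 m g.1.2 ?_))
    rw [eq_inv_of_mul_eq_one_left (congrArg Subtype.val hg : g.1.1 * c.Fw g.1.1 = 1)]
    exact inv_mem (a1 g.1.2)
  · rintro ⟨g, hg, hg'⟩
    obtain ⟨x, hx, y, hy, rfl⟩ := c.dec12 hg
    have h3 := c.mem_Γ_iff.1 hg'
    rw [map_mul, ← c.comm12 m (a2 hy) (a1 hx)] at h3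
    have h4 : x⁻¹ * c.Fw y = y * (c.Fw x)⁻¹ := by
      rw [inv_mul_eq_iff_eq_mul, ← mul_assoc, ← h3, mul_inv_cancel_right]
    have h5 := c.disj12 m (mul_mem (inv_mem hx) (a2 hy)) (h4 ▸ mul_mem hy (inv_mem (a1 hx)))
    have h6 : y = c.Fw x := mul_inv_eq_one.1 (h4 ▸ h5)
    exact ⟨⟨⟨x, hx⟩, hτ.2 (h6 ▸ (inv_mul_eq_one.1 h5).symm)⟩, Subtype.ext (congrArg (x * ·) h6.symm)⟩

end Cx

end CF.Oq
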