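import Cfsg.Agent.Oq.A
import Cfsg.Agent.Comp.MatF

/-! A torus `5⁴` of `Ω₈⁺(4)` with its reflections, and generators. -/

set_option autoImplicit false

namespace CF.Oq

open CF.Chev CF.BN Cfsg Matrix

namespace Ydx

open CF.Comp

/-- A root given by a code. -/
def rt (p : ℕ) : RtO 2 (2 * 4) :=
  if h : Fin.ofNat (2 * 4) (p / 100) ≠ Fin.ofNat (2 * 4) (p / 10 % 10) ∧
    (Fin.ofNat (2 * 4) (p / 100)).val + (Fin.ofNat (2 * 4) (p / 10 % 10)).val + 2 ≤ 2 * 4 then
    ⟨(_, _), h⟩ else ⟨(0, 1), by decide⟩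

/-- The matrix of a root element. -/
noncomputable def XM (r : RtO 2 (2 * 4)) (c : ℕ) : List (List ℕ) :=
  tabl (fun i => tabl (fun j => if i = j then 1 else if (r.1.1.val = i ∧ r.1.2.val = j) ∨
    (r.1.2.val + i = 7 ∧ r.1.1.val + j = 7) then c else 0) (2 * 4)) (2 * 4)

/-- The matrix of a letter. -/
noncomputable def LM (p : ℕ) : List (List ℕ) := XM (rt p) (p % 10)

/-- Packed matrices. -/
def Ms : List ℕ :=
  [0x2000604000100004000101002d006, 0x400810020400010000400010400c1003,
  0xc000303000b00003000b0800c2003, 0xc000300c0003008c00230800c2003,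
  0x40009000040001000040001000040009, 0x93d1f83de81db2d3b3932bf83be8b2b2,
  0x40001000040009000040009000040001, 0x40001000040001000840021000040001,
  0x40005000040001000040001000040005, 0x5834ca81b1432d182c5843cac2b1342d,
  0x40001000040005000040005000040001, 0x40001000040001000440011000040001,
  0x60007000040001000040001000060007, 0xa00040aa0044005000c00500ac004,
  0x40001000060007000060007000040001, 0x400010000480012004c0013000040001,
  0xa000c0000400010000400010000a000c, 0x3d76b3d7a567ec7ded3dbeb3dea5ebec,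
  0x400010000a000c0000a000c000040001, 0x40001000088002200c00030000040001]

/-- Words in the root elements. -/
def Ws : List (List ℕ) :=
  [[12, 102, 601, 61, 13, 211, 122, 212, 121, 321, 232, 322, 231, 231, 323, 233, 321, 241, 422,
  242, 421], [61, 602], [63, 603, 62, 233, 323, 232], [63, 603, 62, 243, 423, 242], [12], [31,
  303, 402, 501, 601, 42, 23, 13, 122, 212, 512, 152, 143, 132, 123, 241, 423, 243], [232],
  [242], [11], [101, 202, 503, 601, 63, 51, 22, 13, 123, 213, 312, 412, 151, 142, 132, 123, 243,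
  233], [231], [241], [11, 102], [13, 102, 601, 61, 211, 122, 212, 121, 241, 231, 321, 421],
  [231, 322], [241, 422], [13, 102, 12], [11, 101, 203, 301, 401, 503, 601, 63, 52, 43, 33, 22,
  12, 122, 211, 311, 411, 513, 151, 141, 131, 121, 241, 232, 323, 421, 241, 232, 231, 322, 232,
  321, 241, 423, 243, 421], [233, 322, 232], [243, 422, 242]]

/-- The simple roots and their negatives. -/
noncomputable def sr (i : ℕ) : ℕ := nth 0 [10, 120, 230, 240, 100, 210, 320, 420] i

/-- The word of an element. -/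
noncomputable def W (i : ℕ) : List ℕ :=
  if i < 20 then nth [] Ws i else [sr ((i - 20) / 4) + i % 4]

/-- The matrix of an element. -/
noncomputable def M (i : ℕ) : List (List ℕ) :=
  if i < 20 then tabl (fun a => tabl (fun b => Chev.Tab.dig (nth 0 Ms i) 2 (8 * a + b)) 8) 8
  else LM (sr ((i - 20) / 4) + i % 4)

/-- The field with four elements. -/
noncomputable abbrev T4 : Comp.Tab := tabQ 2 1 1

/-- Equality of two words. -/
noncomputable def eqW (u v : List ℕ) : Bool :=
  prodK T4 (2 * 4) (u.map M) fun A => prodIs T4 (2 * 4) (v.map M) A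

/-- The certificates of membership. -/
def Cs : List (ℕ × List ℕ × List ℕ) :=
  [(20, [], []), (21, [], [12, 16, 16, 16, 12, 12, 12, 16]), (22, [], [12, 16, 12]), (23, [],
  [12, 12, 16, 16, 16, 12, 12]), (36, [], []), (37, [], [16, 16, 12]), (38, [], [16, 16, 16, 12,
  12, 12, 16]), (39, [], [12, 16, 16, 16, 16, 12, 12]), (28, [], []), (29, [], [14, 18, 18, 18,
  14, 14, 14, 18]), (30, [], [14, 18, 14]), (31, [], [14, 14, 18, 18, 18, 14, 14]), (44, [], []),
  (45, [], [18, 18, 14]), (46, [], [18, 18, 18, 14, 14, 14, 18]), (47, [], [14, 18, 18, 18, 18,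
  14, 14]), (32, [], []), (33, [], [15, 19, 19, 19, 15, 15, 15, 19]), (34, [], [15, 19, 15]),
  (35, [], [15, 15, 19, 19, 19, 15, 15]), (48, [], []), (49, [], [19, 19, 15]), (50, [], [19, 19,
  19, 15, 15, 15, 19]), (51, [], [15, 19, 19, 19, 19, 15, 15]), (24, [], []), (25, [17, 38, 46,
  17, 34, 17, 31, 17, 39], [17, 38, 46, 17, 34, 17, 31, 17, 39, 21]), (26, [22, 16], [22, 16,
  25]), (27, [12, 16], [12, 16, 25]), (40, [], []), (41, [39, 13, 17, 37, 17, 25], [39, 13, 17,
  37, 17, 25, 21]), (42, [39, 23, 37], [39, 23, 37, 41]), (43, [39, 12], [39, 12, 41])]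

/-- The word of an element of the torus. -/
def eW (k : V5) : List ℕ := List.replicate (k 0).val 0 ++ List.replicate (k 1).val 1 ++
  List.replicate (k 2).val 2 ++ List.replicate (k 3).val 3

/-- Every certificate uses earlier elements only. -/
def ordOK : List (ℕ × List ℕ × List ℕ) → List ℕ → Bool
  | [], L => (List.range' 20 32).all (· ∈ L)
  | p :: C, L => (p.2.1 ++ p.2.2).all (· ∈ L) && ordOK C (p.1 :: L)

theorem okW : allLt 20 (fun i => prodIs T4 (2 * 4) ((W i).map LM) (M i)) = true := by decide +kernel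

theorem okE : (∀ i j : Fin 4, eqW [i, j] [j, i]) ∧ (∀ i : Fin 4, eqW [i, i, i, i, i] []) ∧
    (∀ j : Fin 4, eqW (eW (CD5 j)) [12 + j] ∧ eqW [16 + j, 4 + j] [4 + j, 12 + j] ∧
      ∃ a b : Fin (2 * 4), a ≠ b ∧ 0 < ent (M (12 + j)) a b ∧ ent (M (12 + j)) a b < 4) := by
  decide +kernel

theorem okG : ∀ i j : Fin 4, (i ≠ j → eqW [4 + j, i] [i, 4 + j]) ∧
    eqW [8 + j, i] (eW (Pi.single i 1 - (Pi.single i 1 : V5) j • CD5 j) ++ [8 + j.val]) := by
  decide +kernel

theorem okC : (Cs.all fun p => eqW (p.1 :: p.2.1) p.2.2) = true ∧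
    ordOK Cs (List.range' 12 8) = true := by decide +kernel

theorem okR : ∀ i : Fin 4, ∀ c : Fin 4, rt (sr i + c) = (cbD 4 (by omega)).simple i ∧
    rt (sr (4 + i) + c) = (cbD 4 (by omega)).neg ((cbD 4 (by omega)).simple i) ∧
    (sr i + c) % 10 = c ∧ (sr (4 + i) + c) % 10 = c := by
  simp only [BaseO.cb_neg, BaseO.cb_simple]
  decide +kernel

variable (F : Type*) [Field F]

/-- The natural representation. -/
noncomputable def ψ : Y F →* Matrix (Fin (2 * 4)) (Fin (2 * 4)) F :=
  (Units.coeHom _).comp ((toGL F _).comp ((oEquivD 4 F).symm.toMonoidHom.comp (Subgroup.subtype _)))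

theorem ψ_inj : Function.Injective (ψ F) :=
  fun _ _ h => Subtype.val_injective ((oEquivD 4 F).symm.injective
    (toGL_injective F _ (Units.val_injective h)))

/-- The root elements. -/
noncomputable abbrev ρ : StRep (cbD 4 (by omega)) F (Y F) := omRepD F (n := 4) (by omega)

variable {F} {el : ℕ → F} (hT : T4.Ok el)

theorem ψ_x [CharP F 2] (h0 : el 0 = 0) (h1 : el 1 = 1) (r : RtO 2 (2 * 4)) (c : ℕ) :
    ψ F ((ρ F).x r (el c)) = mat el (Equiv.refl _) (XM r c) := by
  have e : ψ F ((ρ F).x r (el c)) = (((baseD 4 (by omega)).natO F (noA1D (by omega))).x r (el c)).val := by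
    rw [← BaseO.omRep₀_map]
    exact congrArg (fun x => (toGL F _ x).val) ((oEquivD 4 F).symm_apply_apply _)
  have e2 : TO₂ r.1.1 r.1.2 = 0 := by
    rw [TO₂, if_neg (by omega), if_neg (by omega)]; simp
  rw [e, BaseO.val_natO_x, e2]
  ext i j
  have := r.2.1
  have := r.ne_rev rfl
  have h3 : ∀ a : Fin (2 * 4), betO 2 a = 1 := fun a => betO_two (by omega)
  simp only [mat, XM, of_apply, Equiv.refl_apply, ent_tabl _ i.2 j.2, Matrix.add_apply, Matrix.smul_apply,
    map_apply, TO_apply, cfP, cfQ, h3, one_apply, Fin.ext_iff, Matrix.zero_apply, ne_eq] at *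
  split_ifs <;> first | omega | simp [h0, h1, CharTwo.neg_eq]

/-- The elements. -/
noncomputable def y (el : ℕ → F) (i : ℕ) : Y F :=
  ((W i).map fun p => (ρ F).x (rt p) (el (p % 10))).prod

/-- The value of a word. -/
noncomputable def pw (el : ℕ → F) (u : List ℕ) : Y F := (u.map (y el)).prod

include hT

theorem ψ_y [CharP F 2] (i : ℕ) : ψ F (y el i) = mat el (Equiv.refl _) (M i) := by
  rw [y, map_list_prod, List.map_map]
  by_cases h : i < 20
  · rw [← hT.prodIs _ (allLt_iff.1 okW i h), List.map_map]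
    exact congrArg List.prod (List.map_congr_left fun p _ => ψ_x hT.zero hT.one _ _)
  · simp [W, M, h, ψ_x hT.zero hT.one, LM]

theorem pw_eq [CharP F 2] {u v : List ℕ} (h : eqW u v = true) : pw el u = pw el v := by
  obtain ⟨C, h1, h2⟩ := hT.prodK (Equiv.refl _) h
  refine ψ_inj F ?_
  have : ∀ u : List ℕ, ψ F (pw el u) = ((u.map M).map (mat el (Equiv.refl _))).prod := fun u => by
    rw [pw, map_list_prod, List.map_map, List.map_map]
    exact congrArg List.prod (List.map_congr_left fun p _ => ψ_y hT _)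
  rw [this, this, ← h1, hT.prodIs _ h2]

theorem mem_of_ord [CharP F 2] {S : Subgroup (Y F)} {C : List (ℕ × List ℕ × List ℕ)} {L : List ℕ}
    (h1 : ∀ p ∈ C, eqW (p.1 :: p.2.1) p.2.2 = true) (h2 : ordOK C L = true) (h3 : ∀ i ∈ L, y el i ∈ S) :
    ∀ i ∈ List.range' 20 32, y el i ∈ S := by
  induction' C with p C ih generalizing L
  · exact fun i hi => h3 i (by simpa using List.all_eq_true.1 h2 i hi)
  simp only [ordOK, Bool.and_eq_true, List.all_eq_true, List.mem_append, decide_eq_true_eq] at h2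
  refine ih (fun q hq => h1 q (List.mem_cons_of_mem _ hq)) h2.2 (List.forall_mem_cons.2 ⟨?_, h3⟩)
  have h4 : ∀ u : List ℕ, (∀ i ∈ u, i ∈ L) → pw el u ∈ S := fun u hu =>
    S.list_prod_mem (List.forall_mem_map.2 fun i hi => h3 i (hu i hi))
  have h5 : y el p.1 * pw el p.2.1 = pw el p.2.2 := pw_eq hT (h1 p List.mem_cons_self)
  rw [eq_mul_inv_of_mul_eq h5]
  exact mul_mem (h4 _ fun i hi => h2.1 i (.inr hi)) (inv_mem (h4 _ fun i hi => h2.1 i (.inl hi)))

omit hT in
theorem pw_eW (k : V5) : pw el (eW k) =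
    y el 0 ^ (k 0).val * y el 1 ^ (k 1).val * y el 2 ^ (k 2).val * y el 3 ^ (k 3).val := by
  simp [pw, eW, mul_assoc]

theorem pw_add [CharP F 2] (k l : V5) : pw el (eW (k + l)) = pw el (eW k) * pw el (eW l) := by
  have h1 : ∀ i j : Fin 4, Commute (y el i) (y el j) := fun i j => by
    simpa [pw, Commute, SemiconjBy] using pw_eq hT (okE.1 i j)
  have h2 : ∀ (i : Fin 4) (a b : ZMod 5), y el i ^ (a + b).val = y el i ^ a.val * y el i ^ b.val :=
    fun i a b => by
      rw [ZMod.val_add, ← pow_add, ← pow_eq_pow_mod]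
      simpa [pw, pow_succ, mul_assoc] using pw_eq hT (okE.2.1 i)
  have h3 : ∀ (i j : Fin 4) (a b : ℕ) (x : Y F),
      y el i ^ a * (y el j ^ b * x) = y el j ^ b * (y el i ^ a * x) := fun i j a b x =>
    ((h1 i j).pow_pow a b).left_comm x
  simp only [pw_eW, Pi.add_apply, mul_assoc]
  rw [show y el 0 ^ (k 0 + l 0).val = _ from h2 0 _ _, show y el 1 ^ (k 1 + l 1).val = _ from h2 1 _ _,
    show y el 2 ^ (k 2 + l 2).val = _ from h2 2 _ _, show y el 3 ^ (k 3 + l 3).val = _ from h2 3 _ _]
  simp only [mul_assoc]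
  congr 1
  have a1 := h3 1 0; have a2 := h3 2 0; have a3 := h3 3 0; have a4 := h3 2 1; have a5 := h3 3 1
  have a6 := h3 3 2
  simp only [Fin.val_zero, Fin.val_one, Fin.val_two, show ((3 : Fin 4) : ℕ) = 3 from rfl] at *
  rw [a3, a2, a1, a5, a4, a6]

end Ydx

open Ydx CF.Comp in
theorem yd (F : Type*) [Field F] [Fintype F] (hF : Fintype.card F = 4) :
    ∃ (e : V5 → Y F) (g n : Fin 4 → Y F), (∀ k l, e (k + l) = e k * e l) ∧ Function.Injective e ∧
      (∀ j k, k j = 0 → g j * e k = e k * g j) ∧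
      (∀ j k, n j * e k * (n j)⁻¹ = e (k - k j • CD5 j)) ∧
      Subgroup.closure (Set.range (fun j => e (CD5 j)) ∪
        Set.range fun j => g j * e (CD5 j) * (g j)⁻¹) = ⊤ := by
  have := (exists_omega_four hF).1
  obtain ⟨el, hT⟩ := exists_ok_four hF
  let e : V5 →+ Additive (Y F) := AddMonoidHom.mk' (fun k => .ofMul (pw el (eW k))) (pw_add hT)
  have h0 : ∀ i : Fin 4, pw el (eW (Pi.single i 1)) = y el i := fun i => by
    have : (1 : ZMod 5).val = 1 := rfl
    fin_cases i <;> simp [pw_eW, this]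
  have h1 : ∀ j : Fin 4, pw el (eW (CD5 j)) = y el (12 + j) := fun j => by
    simpa [pw] using pw_eq hT (okE.2.2 j).1
  have hs : ∀ (a : ZMod 5) (k : V5), pw el (eW (a • k)) = pw el (eW k) ^ a.val := fun a k => by
    conv_lhs => rw [← ZMod.natCast_zmod_val a, Nat.cast_smul_eq_nsmul]
    exact congrArg Additive.toMul (map_nsmul e a.val k)
  have ind : ∀ {P : V5 → Prop} (s : Finset (Fin 4)), P 0 → (∀ a b, P a → P b → P (a + b)) →
      (∀ i ∈ s, P (Pi.single i 1)) → ∀ k : V5, (∀ i ∉ s, k i = 0) → P k := by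
    intro P s a b c k hk
    have : k = ∑ i ∈ s, (k i).val • (Pi.single i 1 : V5) := by
      funext j
      by_cases h : j ∈ s <;>
        simp [-ZMod.natCast_val, ZMod.natCast_zmod_val, Finset.sum_apply, Pi.single_apply, h, hk]
    rw [this]
    refine Finset.sum_induction _ P b a fun i hi => ?_
    induction' (k i).val with n ih
    · simpa using a
    · rw [succ_nsmul]; exact b _ _ ih (c i hi)
  have hz : pw el (eW 0) = 1 := congrArg Additive.toMul (map_zero e)
  have h2 : ∀ (j : Fin 4) (k : V5), y el (8 + j) * pw el (eW k) * (y el (8 + j))⁻¹ =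
      pw el (eW (k - k j • CD5 j)) := fun j k => by
    refine ind (P := fun k => y el (8 + j) * pw el (eW k) * (y el (8 + j))⁻¹ =
      pw el (eW (k - k j • CD5 j))) Finset.univ (by simp [hz]) (fun a b ha hb => ?_)
      (fun i _ => ?_) k (by simp)
    · rw [Pi.add_apply, add_smul, add_sub_add_comm, pw_add hT, pw_add hT, ← ha, ← hb]; group
    · rw [h0, mul_inv_eq_iff_eq_mul]
      simpa [pw] using pw_eq hT (okG i j).2
  refine ⟨fun k => pw el (eW k), fun j => y el (4 + j), fun j => y el (8 + j), pw_add hT,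
    (injective_iff_map_eq_zero e).2 fun k hk => funext fun j => ?_, fun j k hk => ?_, h2, ?_⟩
  · have hk' : pw el (eW k) = 1 := congrArg Additive.toMul hk
    by_contra h
    have h3 := pw_add hT (k - k j • CD5 j) (k j • CD5 j)
    rw [sub_add_cancel, ← h2, hk', mul_one, mul_inv_cancel, one_mul] at h3
    have : Fact (Nat.Prime 5) := ⟨by decide⟩
    have h4 := hs (k j)⁻¹ (k j • CD5 j)
    rw [smul_smul, inv_mul_cancel₀ h, one_smul, ← h3, one_pow, h1] at h4
    obtain ⟨a, b, h5, h6, h7⟩ := (okE.2.2 j).2.2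
    have h8 := congrFun (congrFun (ψ_y hT (12 + j)) a) b
    rw [h4, map_one, one_apply_ne h5, ← hT.zero] at h8
    exact h6.ne (hT.inj 0 (by decide) _ h7 h8)
  · refine ind (P := fun k => y el (4 + j) * pw el (eW k) = pw el (eW k) * y el (4 + j)) {j}ᶜ
      (by simp [hz]) (fun a b ha hb => ?_) (fun i hi => ?_) k fun i hi => ?_
    · rw [pw_add hT, ← mul_assoc, ha, mul_assoc, hb, mul_assoc]
    · rw [h0]
      simpa [pw] using pw_eq hT ((okG i j).1 (by simpa using hi))
    · rwa [show i = j by simpa using hi]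
  · generalize hS : Subgroup.closure (G := Y F) _ = S
    have h3 := mem_of_ord hT (S := S) (List.all_eq_true.1 okC.1) okC.2 (by
      have a : ∀ j : Fin 4, y el (12 + j) ∈ S ∧ y el (16 + j) ∈ S := fun j =>
        ⟨hS ▸ Subgroup.subset_closure (.inl ⟨j, h1 j⟩), hS ▸ Subgroup.subset_closure (.inr ⟨j, by
          simp only [h1]
          rw [mul_inv_eq_iff_eq_mul, eq_comm]
          simpa [pw] using pw_eq hT (okE.2.2 j).2.1⟩)⟩
      simp only [List.range', List.forall_mem_cons]
      exact ⟨(a 0).1, (a 1).1, (a 2).1, (a 3).1, (a 0).2, (a 1).2, (a 2).2, (a 3).2, by simp⟩)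
    have h4 : Function.Surjective fun c : Fin 4 => el c :=
      ((Fintype.bijective_iff_injective_and_card fun c : Fin 4 => el c).2
        ⟨fun a b h => Fin.ext (hT.inj _ a.2 _ b.2 h), by simp [hF]⟩).2
    have h5 : ∀ i < 8, ∀ c : Fin 4, (ρ F).x (rt (sr i + c)) (el ((sr i + c) % 10)) ∈ S := fun i hi c => by
      have := h3 (20 + 4 * i + c) (by simp only [List.mem_range'_1]; omega)
      rwa [y, W, if_neg (by omega), show (20 + 4 * i + c - 20) / 4 = i by omega,
        show (20 + 4 * i + c) % 4 = c by omega, List.map_singleton, List.prod_singleton] at this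
    rw [eq_top_iff, ← omRepD_Gp F (n := 4) (by omega), ← StRep.U_simple]
    refine (ρ F).U_le_iff.2 ?_
    rintro _ ⟨i, rfl | rfl⟩ t <;> obtain ⟨c, rfl⟩ := h4 t
    · simpa only [(okR i c).1, (okR i c).2.2.1] using h5 i (by omega) c
    · simpa only [(okR i c).2.1, (okR i c).2.2.2] using h5 (4 + i) (by omega) c

end CF.Oq
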