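import Cfsg.Agent.Oq.Sy
import Cfsg.Agent.Oq.Yd
import Cfsg.Agent.Oq.CB

/-! Subgroups `Ω₈⁺(4)` of `E₈(2)`: every such subgroup is conjugate into a standard one. -/

set_option autoImplicit false

namespace CF.Oq

open CF.Chev CF.BN Cfsg Cfsg.Lie Matrix

namespace Cx

variable (c : Cx)

theorem exists_root {g : c.G} (hg : g ∈ c.Γ) {l v : V5} (h2 : l ⬝ᵥ v = 2)
    (h : ∀ x, g * c.ep x * g⁻¹ = c.ep (x - (l ⬝ᵥ x) • v)) : ∃ a, l = R a ∧ v = cv a := by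
  obtain ⟨u, hu, k, e⟩ := c.norm_E hg fun x => ⟨_, h x⟩
  refine rigid5 h2 fun r => ⟨u⁻¹ r, dotProduct_eq_iff.1 fun y => ?_⟩
  have := (c.conj_ep_iff (e ▸ c.nW_ep k hu.1) y _).1 (h y) (u⁻¹ r)
  rw [← this, show u (u⁻¹ r) = r by simp, dotProduct_sub, sub_dotProduct, dotProduct_smul,
    smul_dotProduct, smul_eq_mul, smul_eq_mul, mul_comm]

theorem conj_le (hc : c.Ok) (F : Type*) [Field F] [Fintype F] (hF : Fintype.card F = 4)
    {S : Subgroup c.G} (h1 : S ≤ c.Γ) (φ : Y F ≃* S) :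
    ∃ g ∈ c.Γ, ∃ m, S.map (MulAut.conj g).toMonoidHom ≤ c.Hm m := by
  obtain ⟨e, g, n, e1, e2, e3, e4, e5⟩ := yd F hF
  obtain ⟨g₀, hg, h⟩ := c.conj_E hc le_rfl c.ep_mem_Γ (e := fun k => φ (e k))
    (fun k l => by simp [e1]) (fun k l h => e2 (φ.injective (Subtype.ext h))) fun k => h1 (φ _).2
  let ψ : Y F →* c.G := (MulAut.conj g₀).toMonoidHom.comp (S.subtype.comp φ.toMonoidHom)
  have hψ : ∀ y, ψ y ∈ c.Γ := fun y => mul_mem (mul_mem hg (h1 (φ y).2)) (inv_mem hg)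
  have iψ : Function.Injective ψ :=
    (MulAut.conj g₀).injective.comp (Subtype.val_injective.comp φ.injective)
  choose f hf using (show ∀ k, ∃ k', ψ (e k) = c.ep k' from h)
  let M₀ : V5 →ₗ[ZMod 5] V5 := (AddMonoidHom.mk' f fun k l => c.ep_inj (by
    rw [ep_add, ← hf, ← hf, ← hf, e1, map_mul])).toZModLinearMap 5
  have : Fact (Nat.Prime 5) := ⟨Nat.prime_five⟩
  let M : V5 ≃ₗ[ZMod 5] V5 := LinearEquiv.ofInjectiveEndo M₀ fun k l h =>
    e2 (iψ (by rw [hf, hf, show f k = f l from h]))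
  have hM : ∀ k, ψ (e k) = c.ep (M k) := hf
  choose l hl using fun j : Fin 4 =>
    Sy.exists_dot (((LinearMap.proj j).comp M.symm.toLinearMap).toAddMonoidHom)
  have hl' : ∀ j k, l j ⬝ᵥ M k = k j := fun j k => by rw [← hl]; simp
  choose b hb hb' using fun j : Fin 4 => c.exists_root (hψ (n j)) (l := l j) (v := M (CD5 j))
    (by rw [hl']; revert j; decide) fun x => by
      obtain ⟨k, rfl⟩ := M.surjective x
      rw [← hM, ← map_inv, ← map_mul, ← map_mul, e4, hM, hl', map_sub, map_smul]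
  obtain ⟨u, hu, m, hm⟩ := cb (b := b) (adm_of fun i j => by
    rw [← hb, ← hb', hl']; revert i j; decide)
  have key : ∀ j, ∀ x ∈ c.ρ.U (Qa (b j)), c.ν u * x * (c.ν u)⁻¹ ∈ c.D m := fun j x hx =>
    c.ν_conj_mem_U hu.1 (fun r hr => Qa_subset (hm j) (image_Qa hu _ ▸ ⟨r, hr, rfl⟩)) hx
  have top : (c.D m).comap ((MulAut.conj (c.ν u)).toMonoidHom.comp ψ) = ⊤ := by
    rw [eq_top_iff, ← e5, Subgroup.closure_le]
    have h0 : ∀ j, ψ (e (CD5 j)) ∈ c.ρ.U (Qa (b j)) := fun j => by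
      rw [hM, hb']; exact c.ep_cv_mem _
    rintro _ (⟨j, rfl⟩ | ⟨j, rfl⟩)
    · exact key j _ (h0 j)
    · refine key j _ ?_
      rw [map_mul, map_mul, map_inv]
      refine c.cent_hyp (fun x hx => ?_) (h0 j)
      obtain ⟨k, rfl⟩ := M.surjective x
      rw [← hM, ← map_mul, ← map_mul, e3 j k (by rwa [← hb, hl'] at hx)]
  refine ⟨c.ν u * g₀, mul_mem (c.ν_mem_Γ hu) hg, m, ?_⟩
  rintro _ ⟨s, hs, rfl⟩
  obtain ⟨y, hy⟩ := φ.surjective ⟨s, hs⟩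
  have : (MulAut.conj (c.ν u * g₀)).toMonoidHom s = c.ν u * ψ y * (c.ν u)⁻¹ := by
    simp [ψ, hy, mul_assoc]
  rw [this]
  exact Subgroup.mem_inf.2 ⟨top.ge (Subgroup.mem_top y),
    mul_mem (mul_mem (c.ν_mem_Γ hu) (hψ y)) (inv_mem (c.ν_mem_Γ hu))⟩

end Cx

end CF.Oq
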