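import Cfsg.Agent.Oq.Sy
import Cfsg.Agent.Oq.Gr
import Cfsg.Agent.Oq.LB
import Cfsg.Agent.Oq.I3

/-! Subgroups `Ω₈⁺(4)` of `E₈(2)`: normalizers of the standard subgroups. -/

set_option autoImplicit false

namespace CF.Oq

open CF.Chev CF.BN Cfsg Cfsg.Lie Matrix

namespace Cx

variable (c : Cx)

theorem par_of_D {m : Fin 2} {u : Equiv.Perm Rt} (hu : u ∈ c8.W) (h : c.ν u ∈ c.D m) (k : Fin 2)
    (r : Rt) : par (yv m k) (u r) = par (yv m k) r :=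
  c.gr (fun s hs => (mem_Ph_iff m s).1 hs k) h (c.nW_ν hu) r

theorem exists_u (hc : c.Ok) {m m' : Fin 2} {g : c.G} (hg : g ∈ c.Γ)
    (h : (c.Hm m).map (MulAut.conj g).toMonoidHom = c.Hm m') :
    ∃ u ∈ Cw, (∀ j, u (β m j) ∈ Ph m') ∧ g * (c.ν u)⁻¹ ∈ c.Hm m' := by
  have h0 : ∀ x ∈ c.Hm m, g * x * g⁻¹ ∈ c.Hm m' := fun x hx => h.le ⟨x, hx, rfl⟩
  obtain ⟨g', hg', e⟩ := c.conj_E hc (H := c.Hm m') inf_le_right (c.ep_mem_Hm m')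
    (e := fun k => g * c.ep k * g⁻¹) (fun k l => by rw [ep_add]; group)
    (fun k l h => c.ep_inj (by simpa using h)) fun k => h0 _ (c.ep_mem_Hm m k)
  obtain ⟨u, hu, k, e'⟩ := c.norm_E (mul_mem hg'.2 hg) fun k => (e k).imp fun k' h => by
    rw [← h]; group
  have h1 : g * (c.ν u)⁻¹ ∈ c.Hm m' := by
    rw [show g * (c.ν u)⁻¹ = g'⁻¹ * c.ep k by rw [eq_mul_inv_of_mul_eq e'.symm]; group]
    exact mul_mem (inv_mem hg') (c.ep_mem_Hm m' k)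
  refine ⟨u, hu, fun j => (mem_Ph_iff _ _).2 fun k => par_of_rr ((adm_β m).map hu) _ j
    (c.par_of_D (rr_mem_Cw _).1 ?_ k), h1⟩
  have h2 := h0 _ (c.ν_W0 (v := rr (β m j)) (Subgroup.subset_closure ⟨j, rfl⟩))
  have h3 := mul_mem (mul_mem (inv_mem h1) h2) h1
  rw [← conj_rr hu, c.ν_mul (mul_mem hu.1 (rr_mem_Cw _).1) (inv_mem hu.1), c.ν_mul hu.1 (rr_mem_Cw _).1,
    c.ν_inv hu.1]
  simpa [mul_assoc] using h3.1

theorem not_conj (hc : c.Ok) {g : c.G} (hg : g ∈ c.Γ) :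
    (c.Hm 0).map (MulAut.conj g).toMonoidHom ≠ c.Hm 1 := fun h =>
  (c.exists_u hc hg h).elim fun _ hu => lb_ne hu.1 hu.2.1

theorem ν_conj_Hm {m : Fin 2} {u : Equiv.Perm Rt} (hu : u ∈ Cw) (h : ∀ r ∈ Ph m, u r ∈ Ph m)
    {x : c.G} (hx : x ∈ c.Hm m) : c.ν u * x * (c.ν u)⁻¹ ∈ c.Hm m :=
  Subgroup.mem_inf.2 ⟨c.ν_conj_mem_U hu.1 h hx.1,
    mul_mem (mul_mem (c.ν_mem_Γ hu) hx.2) (inv_mem (c.ν_mem_Γ hu))⟩

theorem relIndex_Hm (hc : c.Ok) (m : Fin 2) :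
    (c.Hm m).relIndex (Subgroup.normalizer (c.Hm m : Set c.G) ⊓ c.Γ) = nn m := by
  obtain ⟨z, z1, z2, z3⟩ := lb m
  have n1 : ∀ i, c.ν (z i) ∈ Subgroup.normalizer (c.Hm m : Set c.G) := fun i =>
    Subgroup.mem_normalizer_iff.2 fun x => ⟨c.ν_conj_Hm (z1 i).1 fun r => ((z1 i).2 r).2, fun hx => by
      have := c.ν_conj_Hm (inv_mem (z1 i).1) (fun r hr => ((z1 i).2 _).1 (by simpa using hr)) hx
      simpa [c.ν_inv (z1 i).1.1, mul_assoc] using this⟩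
  rw [Subgroup.relIndex, Subgroup.index, ← Nat.card_fin (nn m)]
  refine (Nat.card_eq_of_bijective (fun i => QuotientGroup.mk
    (⟨c.ν (z i), n1 i, c.ν_mem_Γ (z1 i).1⟩ : ↥(_ ⊓ c.Γ))) ⟨fun i i' h => ?_, fun q => ?_⟩).symm
  · by_contra hi
    have h1 : (c.ν (z i))⁻¹ * c.ν (z i') ∈ c.Hm m := Subgroup.mem_subgroupOf.1 (QuotientGroup.eq.1 h)
    have h2 := (mul_mem (inv_mem (z1 i).1) (z1 i').1).1
    rw [← c.ν_inv (z1 i).1.1, ← c.ν_mul (inv_mem (z1 i).1).1 (z1 i').1.1] at h1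
    rcases z2 i i' hi with ⟨k, r, h3⟩ | h3
    · exact h3 (c.par_of_D h2 h1.1 k r)
    · exact c.not_swap h2 h3 h1.1
  · obtain ⟨⟨g, g1, g2⟩, rfl⟩ := QuotientGroup.mk_surjective q
    obtain ⟨u, hu, h1, h2⟩ := c.exists_u hc g2 (m := m) (m' := m) (by
      ext x
      refine ⟨?_, fun hx => ⟨g⁻¹ * x * g, (Subgroup.mem_normalizer_iff''.1 g1 x).1 hx, by
        simp [mul_assoc]⟩⟩
      rintro ⟨x, hx, rfl⟩
      exact (Subgroup.mem_normalizer_iff.1 g1 x).1 hx)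
    obtain ⟨i, v, hv, rfl⟩ := z3 u hu h1
    refine ⟨i, QuotientGroup.eq.2 ?_⟩
    have := (Subgroup.mem_normalizer_iff''.1 (n1 i) _).1 (mul_mem h2 (c.ν_W0 hv))
    rw [c.ν_mul (W0_le m hv).1 (z1 i).1.1] at this
    simpa [Subgroup.mem_subgroupOf, mul_assoc] using this

theorem cent_Hm (m : Fin 2) (hz : Subgroup.center (c.Hm m) = ⊥) {g : c.G} (hg : g ∈ c.Γ)
    (h : ∀ x ∈ c.Hm m, g * x = x * g) : g = 1 := by
  obtain ⟨k, rfl⟩ := c.cent_E hg fun k => h _ (c.ep_mem_Hm m k)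
  have : (⟨_, c.ep_mem_Hm m k⟩ : c.Hm m) ∈ Subgroup.center (c.Hm m) :=
    Subgroup.mem_center_iff.2 fun x => Subtype.ext (h x x.2).symm
  rw [hz, Subgroup.mem_bot] at this
  exact congrArg Subtype.val this

end Cx

end CF.Oq
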