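import Cfsg.Agent.Sig.Amb

/-! Subgroups `Ω₈⁺(4)` of `E₈(2)`: the count of the classes. -/

set_option autoImplicit false
set_option linter.unusedSectionVars false

namespace CF.Oq

open Subgroup Cfsg CF.BG CF.Sig

namespace Z

variable {X Y : Type*} [Group X] [Finite X] [Group Y] {H K : Subgroup X} {k : ℕ}

/-- `F*(K)` is `Y` with index `k` -/
def PF (Y : Type*) [Group Y] (k : ℕ) (K : Subgroup X) : Prop :=
  Nonempty (generalizedFittingSubgroup K ≃* Y) ∧ (generalizedFittingSubgroup K).index = k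

theorem pf_iff : PF Y k K ↔ Nonempty (Fst K ≃* Y) ∧ (Fst K).relIndex K = k := by
  have e := (generalizedFittingSubgroup K).equivMapOfInjective _ K.subtype_injective
  rw [PF, Fst, relIndex, subgroupOf, comap_map_eq_self_of_injective K.subtype_injective]
  exact and_congr_left' ⟨fun ⟨f⟩ => ⟨e.symm.trans f⟩, fun ⟨f⟩ => ⟨e.trans f⟩⟩

theorem fst_eq [IsSimpleGroup Y] (hY : center Y = ⊥) (iso : Nonempty (H ≃* Y)) (cen : 𝐂 H = ⊥) (n : H ⊴ K) :
    Fst K = H := by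
  obtain ⟨e⟩ := iso
  have := e.isSimpleGroup
  have c : Comp H K := comp_iff.2 ⟨n.subN, qs_of_isSimpleGroup fun a => by
    obtain ⟨y, hy⟩ := exists_ne (1 : Y)
    exact hy (mem_bot.1 (hY ▸ mem_center_iff.2 fun x => e.symm.injective (by rw [map_mul, map_mul, a.is_comm.comm])))⟩
  refine le_antisymm ?_ (c.le_Lay.trans (Lay_le_Fst _))
  rw [Fst_eq]
  exact sup_le (Lay_le_iff.2 fun L q => (q.eq_or_cent c).elim Eq.le fun l => (l.trans cen.le).trans bot_le)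
    (((cent_symm c.cent_F).trans cen.le).trans bot_le)

theorem syl (H : Subgroup X) (p a : ℕ) [Fact p.Prime] (h : (H.relIndex (𝐍 H)).factorization p = a) :
    ∃ K, H ⊴ K ∧ H.relIndex K = p ^ a ∧ ∀ L, H ⊴ L → H.relIndex L = p ^ a → ∃ g, cj g L = K := by
  have c : Nat.card (Quo H) = H.relIndex (𝐍 H) := by rw [← card_qt le_rfl, qt_norm_eq_top, card_top]
  let P : Sylow p (Quo H) := default
  refine ⟨qp H P, normal_qp _, by rw [relIndex_qp, P.card_eq_multiplicity, c, h], fun L n e => ?_⟩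
  obtain ⟨g, r⟩ := MulAction.exists_smul_eq (Quo H) (Sylow.ofCard (p := p) (qt H L) (by rw [card_qt n.norm, e, c, h])) P
  obtain ⟨g, hg, rfl⟩ := exists_qe g
  refine ⟨g, ?_⟩
  have r' : cj (qe H g) (qt H L) = P := by rw [← r]; rfl
  rw [← r', qp_cj hg, qp_qt_of_normal n]

theorem core [IsSimpleGroup Y] (hY : center Y = ⊥) (H : Fin 2 → Subgroup X) (iso : ∀ m, Nonempty (H m ≃* Y))
    (all : ∀ S : Subgroup X, Nonempty (S ≃* Y) → ∃ g m, cj g S = H m) (nc : ∀ g, cj g (H 0) ≠ H 1)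
    (cen : ∀ m, 𝐂 (H m) = ⊥) (i0 : (H 0).relIndex (𝐍 (H 0)) = 12) (i1 : (H 1).relIndex (𝐍 (H 1)) = 4)
    (classes : (Subgroup X → Prop) → ℕ → Prop)
    (hc : ∀ (P : Subgroup X → Prop) (k : ℕ), classes P k ↔ ∃ f : Fin k → Subgroup X, (∀ i, P (f i)) ∧
      (∀ i j, (∃ g : X, cj g (f i) = f j) → i = j) ∧ ∀ H, P H → ∃ (i : Fin k) (g : X), cj g H = f i) :
    classes (fun H => Nonempty (H ≃* Y)) 2 ∧ classes (PF Y 3) 1 ∧ classes (PF Y 4) 2 ∧ classes (PF Y 12) 1 := by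
  have nc' : ∀ i j, (∃ g, cj g (H i) = H j) → i = j := fun i j ⟨g, e⟩ => by
    fin_cases i <;> fin_cases j
    exacts [rfl, absurd e (nc g), absurd (cj_eq_iff.1 e).symm (nc _), rfl]
  have A : ∀ {m k K}, H m ⊴ K → (H m).relIndex K = k → PF Y k K := fun {m k K} n e => pf_iff.2 (by
    rw [fst_eq hY (iso m) (cen m) n]; exact ⟨iso m, e⟩)
  have B : ∀ {k K}, PF Y k K → ∃ g m, H m ⊴ cj g K ∧ (H m).relIndex (cj g K) = k ∧ k ∣ (H m).relIndex (𝐍 (H m)) :=
    fun {k K} h => by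
      obtain ⟨i, e⟩ := pf_iff.1 h
      obtain ⟨g, m, r⟩ := all _ i
      have n : H m ⊴ cj g K := by rw [← r, cj_Fst]; exact Fst_normal _
      have e' : (H m).relIndex (cj g K) = k := by rw [← r, relIndex_cj, e]
      exact ⟨g, m, n, e', e' ▸ Dvd.intro _ (relIndex_mul_relIndex _ _ _ n.le n.norm)⟩
  have := Fact.mk Nat.prime_three
  obtain ⟨K3, n3, e3, a3⟩ := syl (H 0) 3 1 (by rw [i0]; decide +kernel)
  obtain ⟨K4, n4, e4, a4⟩ := syl (H 0) 2 2 (by rw [i0]; decide +kernel)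
  obtain ⟨L4, m4, f4, b4⟩ := syl (H 1) 2 2 (by rw [i1]; decide +kernel)
  refine ⟨(hc _ _).2 ⟨H, iso, nc', fun S h => ?_⟩, (hc _ _).2 ⟨fun _ => K3, fun _ => A n3 e3,
    fun _ _ _ => Subsingleton.elim _ _, fun K h => ?_⟩, (hc _ _).2 ⟨![K4, L4], fun i => ?_, fun i j ⟨g, e⟩ => ?_,
    fun K h => ?_⟩, (hc _ _).2 ⟨fun _ => 𝐍 (H 0), fun _ => A (normalIn_norm _) i0,
    fun _ _ _ => Subsingleton.elim _ _, fun K h => ?_⟩⟩
  · obtain ⟨g, m, e⟩ := all S h
    exact ⟨m, g, e⟩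
  · obtain ⟨g, m, n, e, d⟩ := B h
    fin_cases m
    · obtain ⟨g', r⟩ := a3 _ n e
      exact ⟨0, g' * g, by rw [← cj_cj, r]⟩
    · exact absurd (i1 ▸ d) (by decide)
  · fin_cases i
    exacts [A n4 e4, A m4 f4]
  · have n : ∀ i, H i ⊴ ![K4, L4] i := fun i => by fin_cases i; exacts [n4, m4]
    exact nc' i j ⟨g, by rw [← fst_eq hY (iso i) (cen i) (n i), cj_Fst, e, fst_eq hY (iso j) (cen j) (n j)]⟩
  · obtain ⟨g, m, n, e, -⟩ := B h
    fin_cases m
    · obtain ⟨g', r⟩ := a4 _ n e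
      exact ⟨0, g' * g, by rw [← cj_cj, r]; rfl⟩
    · obtain ⟨g', r⟩ := b4 _ n e
      exact ⟨1, g' * g, by rw [← cj_cj, r]; rfl⟩
  · obtain ⟨g, m, n, e, d⟩ := B h
    fin_cases m
    · have := relIndex_mul_relIndex _ _ _ n.le n.norm
      rw [e] at this
      have r : 12 * (cj g K).relIndex (𝐍 (H 0)) = 12 * 1 := this.trans i0
      exact ⟨0, g, le_antisymm n.norm (relIndex_eq_one.1 (Nat.eq_of_mul_eq_mul_left (by decide) r))⟩
    · exact absurd (i1 ▸ d) (by decide)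

end Z

theorem count {G X Y : Type*} [Group G] [Group X] [Finite X] [Group Y] [IsSimpleGroup Y]
    (hY : Subgroup.center Y = ⊥) (Γ : Subgroup G) (e : Γ ≃* X) (H : Fin 2 → Subgroup G)
    (le : ∀ m, H m ≤ Γ) (iso : ∀ m, Nonempty (H m ≃* Y))
    (all : ∀ S ≤ Γ, Nonempty (Y ≃* S) → ∃ g ∈ Γ, ∃ m, S.map (MulAut.conj g).toMonoidHom ≤ H m)
    (nc : ∀ g ∈ Γ, (H 0).map (MulAut.conj g).toMonoidHom ≠ H 1)
    (cen : ∀ m, ∀ g ∈ Γ, (∀ x ∈ H m, g * x = x * g) → g = 1)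
    (i0 : (H 0).relIndex (Subgroup.normalizer (H 0 : Set G) ⊓ Γ) = 12)
    (i1 : (H 1).relIndex (Subgroup.normalizer (H 1 : Set G) ⊓ Γ) = 4)
    (classes : (Subgroup X → Prop) → ℕ → Prop)
    (hclasses : ∀ (P : Subgroup X → Prop) (k : ℕ), classes P k ↔
      ∃ f : Fin k → Subgroup X, (∀ i, P (f i)) ∧
        (∀ i j, (∃ g : X, (f i).map (MulAut.conj g).toMonoidHom = f j) → i = j) ∧
        (∀ H, P H → ∃ (i : Fin k) (g : X), H.map (MulAut.conj g).toMonoidHom = f i)) :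
    classes (fun H => Nonempty (H ≃* Y)) 2 ∧
    classes (fun H => Nonempty (generalizedFittingSubgroup H ≃* Y) ∧
      (generalizedFittingSubgroup H).index = 3) 1 ∧
    classes (fun H => Nonempty (generalizedFittingSubgroup H ≃* Y) ∧
      (generalizedFittingSubgroup H).index = 4) 2 ∧
    classes (fun H => Nonempty (generalizedFittingSubgroup H ≃* Y) ∧
      (generalizedFittingSubgroup H).index = 12) 1 := by
  let φ : X →* G := Γ.subtype.comp e.symm.toMonoidHom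
  have inj : Function.Injective φ := Γ.subtype_injective.comp e.symm.injective
  have rg : φ.range = Γ := by
    rw [MonoidHom.range_comp, MonoidHom.range_eq_top.2 e.symm.surjective, ← MonoidHom.range_eq_map, range_subtype]
  have mem : ∀ x, φ x ∈ Γ := fun x => rg.le ⟨x, rfl⟩
  have mc : ∀ m, ((H m).comap φ).map φ = H m := fun m => map_comap_eq_self ((le m).trans rg.ge)
  have mj : ∀ g (S : Subgroup X), (cj g S).map φ = cj (φ g) (S.map φ) := fun g S => by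
    rw [cj, cj, map_map, map_map]; congr 1; ext; simp
  have iso' : ∀ m, Nonempty ((H m).comap φ ≃* Y) := fun m => (iso m).elim fun f =>
    ⟨((equivMapOfInjective _ φ inj).trans (MulEquiv.subgroupCongr (mc m))).trans f⟩
  have ix : ∀ m, ((H m).comap φ).relIndex (𝐍 ((H m).comap φ)) = (H m).relIndex (𝐍 (H m) ⊓ Γ) := fun m => by
    rw [← comap_normalizer_eq_of_le_range ((le m).trans rg.ge), relIndex_comap, map_comap_eq, rg, inf_comm]
  refine Z.core hY (fun m => (H m).comap φ) iso' (fun S ⟨f⟩ => ?_) (fun g r => nc _ (mem g) ?_) (fun m => eq_bot_iff.2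
    fun g hg => mem_bot.2 (inj ((cen m _ (mem g) fun x hx => ?_).trans (map_one φ).symm))) ((ix 0).trans i0)
    ((ix 1).trans i1) classes hclasses
  · obtain ⟨g, hg, m, l⟩ := all (S.map φ) ((map_le_range _ _).trans rg.le) ⟨f.symm.trans (equivMapOfInjective _ φ inj)⟩
    obtain ⟨g, rfl⟩ := rg.ge hg
    refine ⟨g, m, eq_of_le_of_card_ge (map_le_iff_le_comap.1 ((mj g S).le.trans l)) ?_⟩
    obtain ⟨f'⟩ := iso' m
    rw [card_cj, Nat.card_congr f.toEquiv, Nat.card_congr f'.toEquiv]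
  · rw [← mc 0, ← mc 1, ← r, mj]; rfl
  · obtain ⟨x, rfl⟩ := rg.ge (le m hx)
    rw [← map_mul, ← map_mul, mem_cent.1 hg x hx]

end CF.Oq
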