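import Cfsg.Agent.Oq.M
import Cfsg.Agent.Oq.Nr
import Cfsg.Agent.Oq.F0
import Cfsg.Agent.Oq.Z

/-! The classes of subgroups `Ω₈⁺(4)` of `E₈(2)`. -/

set_option autoImplicit false

namespace CF.Oq

open CF.Chev CF.BN Cfsg Cfsg.Lie Matrix

theorem main {X : Type*} [Group X] (L : LS.{0} c8 1 2 2 1 X) (hX : ¬ 5 ^ 6 ∣ Nat.card X)
    (F : Type*) [Field F] [Fintype F] (hF : Fintype.card F = 4)
    (classes : (Subgroup X → Prop) → ℕ → Prop)
    (hclasses : ∀ (P : Subgroup X → Prop) (k : ℕ), classes P k ↔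
      ∃ f : Fin k → Subgroup X, (∀ i, P (f i)) ∧
        (∀ i j, (∃ g : X, (f i).map (MulAut.conj g).toMonoidHom = f j) → i = j) ∧
        (∀ H, P H → ∃ (i : Fin k) (g : X), H.map (MulAut.conj g).toMonoidHom = f i)) :
    classes (fun H => Nonempty (H ≃* Y F)) 2 ∧
    classes (fun H => Nonempty (generalizedFittingSubgroup H ≃* Y F) ∧
      (generalizedFittingSubgroup H).index = 3) 1 ∧
    classes (fun H => Nonempty (generalizedFittingSubgroup H ≃* Y F) ∧
      (generalizedFittingSubgroup H).index = 4) 2 ∧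
    classes (fun H => Nonempty (generalizedFittingSubgroup H ≃* Y F) ∧
      (generalizedFittingSubgroup H).index = 12) 1 := by
  obtain ⟨c, hc, ⟨e⟩⟩ := exists_cx L hX
  obtain ⟨h1, h2⟩ := simple_Y F hF
  have := hc.finite
  have : Finite X := Finite.of_equiv _ e.toEquiv
  refine count h2 c.Γ e c.Hm (fun _ => inf_le_right) (fun m => c.iso_Hm m F hF)
    (fun S hS ⟨φ⟩ => c.conj_le hc F hF hS φ) (fun g hg => c.not_conj hc hg)
    (fun m g hg => c.cent_Hm m ?_ hg) (c.relIndex_Hm hc 0) (c.relIndex_Hm hc 1) classes hclasses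
  obtain ⟨φ⟩ := c.iso_Hm m F hF
  refine eq_bot_iff.2 fun x hx => φ.injective ?_
  rw [map_one, ← Subgroup.mem_bot, ← h2, Subgroup.mem_center_iff]
  intro y
  obtain ⟨y, rfl⟩ := φ.surjective y
  rw [← map_mul, ← map_mul, Subgroup.mem_center_iff.1 hx]

end CF.Oq
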