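import Cfsg.Agent.Oq.C1

/-! Subgroups `Ω₈⁺(4)` of `E₈(2)`: the representatives of the Weyl group. -/

set_option autoImplicit false

namespace CF.Oq

open CF.Chev CF.BN Cfsg Cfsg.Lie Matrix

namespace Cx

variable (c : Cx)

theorem center_eq : Subgroup.center c.G = ⊥ :=
  c.h.r3.center_eq_bot c.h.faith c.h.top (RootSys.Cen.ker_eq_bot cenE8 c.K)

theorem n_conj_x (r s : Rt) (t : c.K) :
    c.ρ.n r 1 * c.ρ.x s t * (c.ρ.n r 1)⁻¹ = c.ρ.x (c8.refl r s) t := by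
  have : (c8.eta r s : c.K) = 1 := by
    rcases c8.eta_eq r s with h | h <;> simp [h, CharTwo.neg_eq]
  rw [c.ρ.n_conj, this]
  simp

theorem nw_conj_x (l : List (Fin 8)) (r : Rt) (t : c.K) :
    c.ρ.nw l * c.ρ.x r t * (c.ρ.nw l)⁻¹ = c.ρ.x (c8.wp l r) t := by
  induction l with
  | nil => simp
  | cons i l ih =>
    rw [StRep.nw_cons, RootSys.wp_cons, Equiv.Perm.mul_apply, ← c8.refl_simple, ← c.n_conj_x, ← ih]
    simp only [StRep.ns]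
    group

theorem ν_conj {u : Equiv.Perm Rt} (hu : u ∈ c8.W) (r : Rt) (t : c.K) :
    c.ν u * c.ρ.x r t * (c.ν u)⁻¹ = c.ρ.x (u r) t := by
  rw [ν, c.nw_conj_x, wp_wd hu]

/-- An element is determined by its action on the root elements. -/
theorem eq_of_conj_x {g g' : c.G} (h : ∀ r t, g * c.ρ.x r t * g⁻¹ = g' * c.ρ.x r t * g'⁻¹) :
    g = g' := by
  have e : (MulAut.conj g).toMonoidHom = (MulAut.conj g').toMonoidHom :=
    StRep.hom_ext c.h.top fun r t => h r t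
  have : g'⁻¹ * g ∈ Subgroup.center c.G := Subgroup.mem_center_iff.2 fun y => by
    have := DFunLike.congr_fun e y
    simp only [MulEquiv.coe_toMonoidHom, MulAut.conj_apply] at this
    calc y * (g'⁻¹ * g) = g'⁻¹ * (g' * y * g'⁻¹) * g := by group
      _ = g'⁻¹ * g * y := by rw [← this]; group
  rw [c.center_eq, Subgroup.mem_bot, inv_mul_eq_one] at this
  exact this.symm

theorem ν_mul {u v : Equiv.Perm Rt} (hu : u ∈ c8.W) (hv : v ∈ c8.W) :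
    c.ν (u * v) = c.ν u * c.ν v := c.eq_of_conj_x fun r t => by
  rw [c.ν_conj (mul_mem hu hv), Equiv.Perm.mul_apply, ← c.ν_conj hu, ← c.ν_conj hv]
  group

theorem ν_one : c.ν 1 = 1 := c.eq_of_conj_x fun r t => by
  rw [c.ν_conj (one_mem _)]
  simp

theorem ν_inv {u : Equiv.Perm Rt} (hu : u ∈ c8.W) : c.ν u⁻¹ = (c.ν u)⁻¹ :=
  eq_inv_of_mul_eq_one_left (by rw [← c.ν_mul (inv_mem hu) hu, inv_mul_cancel, c.ν_one])

theorem σ_ν (u : Equiv.Perm Rt) : c.σ (c.ν u) = c.ν u :=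
  fh_nw (τ := iterateFrobenius c.K 2 1) (fun r t => c.h.fa_x c.h.r3 _ r t) _

theorem ν_refl (r : Rt) : c.ν (c8.refl r) = c.ρ.n r 1 := c.eq_of_conj_x fun s t => by
  rw [c.ν_conj (c8.refl_mem_W r), c.n_conj_x]

theorem ν_mem_Γ {u : Equiv.Perm Rt} (hu : u ∈ Cw) : c.ν u ∈ c.Γ := by
  obtain ⟨h1, h2⟩ := mem_Cw.1 hu
  have e : u * w = w * u := Equiv.ext fun r => by simp only [Equiv.Perm.mul_apply, h2]
  rw [mem_Γ, σ_ν, eq_mul_inv_iff_mul_eq, ← c.ν_mul h1 w_mem_W, ← c.ν_mul w_mem_W h1, e]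

theorem n_mem_U {S : Set Rt} {r : Rt} (h1 : r ∈ S) (h2 : c8.neg r ∈ S) (t : c.Kˣ) :
    c.ρ.n r t ∈ c.ρ.U S :=
  mul_mem (mul_mem (c.ρ.x_mem_U h1 _) (c.ρ.x_mem_U h2 _)) (c.ρ.x_mem_U h1 _)

theorem ν_rr_mem (a : Rt) : c.ν (rr a) ∈ c.ρ.U (Qa a) := by
  rw [rr, c.ν_mul (c8.refl_mem_W _) (c8.refl_mem_W _), ν_refl, ν_refl]
  exact mul_mem (c.n_mem_U (by simp [Qa]) (by simp [Qa]) _) (c.n_mem_U (by simp [Qa]) (by simp [Qa]) _)

theorem ν_W0 {m : Fin 2} {v : Equiv.Perm Rt} (hv : v ∈ W0 m) : c.ν v ∈ c.Hm m := by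
  refine Subgroup.mem_inf.2 ⟨?_, c.ν_mem_Γ (W0_le m hv)⟩
  induction hv using Subgroup.closure_induction with
  | mem x hx =>
    obtain ⟨j, rfl⟩ := hx
    exact c.ρ.U_mono (Qa_subset (Or.inl (β_mem_P1 m j))) (c.ν_rr_mem _)
  | one => rw [ν_one]; exact one_mem _
  | mul x y hx hy h1 h2 => rw [c.ν_mul (W0_le m hx).1 (W0_le m hy).1]; exact mul_mem h1 h2
  | inv x hx h1 => rw [c.ν_inv (W0_le m hx).1]; exact inv_mem h1

theorem ν_conj_mem_U {u : Equiv.Perm Rt} (hu : u ∈ c8.W) {S T : Set Rt} (h : ∀ r ∈ S, u r ∈ T)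
    {g : c.G} (hg : g ∈ c.ρ.U S) : c.ν u * g * (c.ν u)⁻¹ ∈ c.ρ.U T :=
  (c.nW_ν hu).acts.conj_mem_U h hg

theorem σ_tor (a : Fin 8 → c.Kˣ) : c.σ (c.h.r3.tor a) = c.h.r3.tor (a ^ 2) := by
  rw [σ, Univ.fr, fh_tor (τ := iterateFrobenius c.K 2 1) (fun r t => c.h.fa_x c.h.r3 _ r t) _ c.h.r3]
  refine congrArg _ (funext fun i => Units.ext ?_)
  simp [frobenius_def]

theorem σ_mem_H {g : c.G} (hg : g ∈ c.ρ.H) : c.σ g ∈ c.ρ.H := by
  obtain ⟨a, rfl⟩ := c.h.r3.range_tor.ge hg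
  rw [σ_tor]
  exact tor_mem_H _ _

theorem nW_σ {g : c.G} {u : Equiv.Perm Rt} (h : c.ρ.NW g u) : c.ρ.NW (c.σ g) u := by
  have h1 := c.nW_ν h.mem_W
  have := (StRep.nW_of_mem_H (c.σ_mem_H (h.mul_inv_mem_H h1))).mul h1
  rwa [one_mul, map_mul, map_inv, σ_ν, inv_mul_cancel_right] at this

theorem mem_Cw_of_NW {g : c.G} (hg : g ∈ c.Γ) {u : Equiv.Perm Rt} (h : c.ρ.NW g u) : u ∈ Cw := by
  have h1 := c.nW_σ h
  rw [c.mem_Γ.1 hg] at h1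
  have h2 := h1.eq c.h.faith (((c.nW_ν w_mem_W).mul h).mul (c.nW_ν w_mem_W).inv)
  refine mem_Cw.2 ⟨h.mem_W, fun r => ?_⟩
  conv_lhs => rw [h2]
  simp

end Cx

end CF.Oq
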