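import Cfsg.Agent.Oq.C1

/-! Rigidity of transvections and reflections of the torus. -/

set_option autoImplicit false

namespace CF.Oq

open CF.Chev CF.BN Cfsg Cfsg.Lie Matrix

namespace T

/-- The values of the roots as a bit mask. -/
def M : ℕ := 0x11f9461540a80921818550150318629f540a80c525f8486c20313090152708f921818486c203f4946122454090c5a7d501503130901224540c53f1854610ff18629f52708f90c5a7d4610ff14947e

/-- The test for `x - c l`. -/
def tr (c l0 l1 l2 l3 x0 x1 x2 x3 : ℕ) : Bool := M.testBit ((x0 + 4 * c * l0) % 5 + 5 * ((x1 + 4 * c * l1) % 5) +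
  25 * ((x2 + 4 * c * l2) % 5) + 125 * ((x3 + 4 * c * l3) % 5))

theorem tr_of {l x : V5} {c : ℕ} (h : ∃ s, R s = x - (c : ZMod 5) • l) {f : ℕ → ℕ}
    (e : ∀ i : Fin 4, x i = f i) :
    tr c (l 0).val (l 1).val (l 2).val (l 3).val (f 0) (f 1) (f 2) (f 3) = true := by
  obtain ⟨s, h⟩ := h
  have k : ∀ i : Fin 4, (f i + 4 * c * (l i).val) % 5 = RN s i % 5 := fun i => by
    rw [← ZMod.natCast_eq_natCast_iff', ← R_eq, h]
    simp only [Pi.sub_apply, e, Pi.smul_apply, smul_eq_mul]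
    push_cast
    rw [ZMod.natCast_zmod_val, show (4 : ZMod 5) = -1 from rfl]
    ring
  rw [tr, show (f 0 + _) % 5 = RN s 0 % 5 from k 0, show (f 1 + _) % 5 = RN s 1 % 5 from k 1,
    show (f 2 + _) % 5 = RN s 2 % 5 from k 2, show (f 3 + _) % 5 = RN s 3 % 5 from k 3]
  clear k h
  revert s
  decide +kernel

/-- The test for the pair of a root. -/
noncomputable def gd (l v a j : ℕ) (b : Rt) : Bool :=
  Nat.beq l (RN a j % 5) && decide ((v : ℤ) % 5 = (AN a b + 3 * AN (wN a) b) % 5)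

theorem gd_spec {l v : ZMod 5} {a : Rt} (j : Fin 4) (h : gd l.val v.val a j (β 0 j) = true) :
    l = R a j ∧ v = cv a j := by
  simp only [gd, Bool.and_eq_true, Nat.beq_eq, decide_eq_true_eq] at h
  refine ⟨ZMod.val_injective 5 (by rw [h.1, R_eq, ZMod.val_natCast]), ?_⟩
  rw [← ZMod.natCast_zmod_val v, ← Int.cast_natCast, cv, A_eq, A_eq, w_val]
  exact (ZMod.intCast_eq_intCast_iff' _ _ 5).2 h.2

theorem chk : allLt 5 (fun l0 => allLt 5 fun l1 => allLt 5 fun l2 => allLt 5 fun l3 =>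
    Nat.beq (l0 + l1 + l2 + l3) 0 ||
    allLt 5 fun v0 => !tr v0 l0 l1 l2 l3 1 0 0 0 || allLt 5 fun v1 => !tr v1 l0 l1 l2 l3 0 1 0 0 ||
    allLt 5 fun v2 => !tr v2 l0 l1 l2 l3 0 0 1 0 || allLt 5 fun v3 => !tr v3 l0 l1 l2 l3 0 0 0 1 ||
    Nat.beq (v0 + v1 + v2 + v3) 0 ||
    !allLt 240 (fun r => tr (RN r 0 * v0 + RN r 1 * v1 + RN r 2 * v2 + RN r 3 * v3) l0 l1 l2 l3
      (RN r 0) (RN r 1) (RN r 2) (RN r 3)) ||
    !allLt 240 fun a => !(gd l0 v0 a 0 141 && gd l1 v1 a 1 130 && gd l2 v2 a 2 135 && gd l3 v3 a 3 126)) = true := by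
  decide +kernel

theorem zero {l : V5} (h : Nat.beq ((l 0).val + (l 1).val + (l 2).val + (l 3).val) 0 = true) : l = 0 := by
  simp only [Nat.beq_eq, Nat.add_eq_zero_iff, ZMod.val_eq_zero] at h
  exact funext fun i => by fin_cases i <;> simp [h]

theorem key {l v : V5} (hl : l ≠ 0) (h : ∀ r, ∃ s, R s = R r - (R r ⬝ᵥ v) • l) :
    v = 0 ∨ ∃ a, l = R a ∧ v = cv a := by
  have t : ∀ j : Fin 4, tr (v j).val (l 0).val (l 1).val (l 2).val (l 3).val (if 0 = j.1 then 1 else 0)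
      (if 1 = j.1 then 1 else 0) (if 2 = j.1 then 1 else 0) (if 3 = j.1 then 1 else 0) = true := fun j =>
    tr_of (x := Pi.single j 1) (f := fun i => if i = j.1 then 1 else 0) (by simpa [R_β0] using h (β 0 j))
      fun i => by simp [Pi.single_apply, Fin.ext_iff]
  have a := fun (x : V5) i => ZMod.val_lt (x i)
  have k := allLt_iff.1 (allLt_iff.1 (allLt_iff.1 (allLt_iff.1 chk _ (a l 0)) _ (a l 1)) _ (a l 2)) _ (a l 3)
  replace k := allLt_iff.1 ((Bool.or_eq_true_iff.1 k).resolve_left (mt zero hl)) _ (a v 0)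
  rw [show tr _ _ _ _ _ 1 0 0 0 = true from t 0, Bool.not_true, Bool.false_or] at k
  replace k := allLt_iff.1 k _ (a v 1)
  rw [show tr _ _ _ _ _ 0 1 0 0 = true from t 1, Bool.not_true, Bool.false_or] at k
  replace k := allLt_iff.1 k _ (a v 2)
  rw [show tr _ _ _ _ _ 0 0 1 0 = true from t 2, Bool.not_true, Bool.false_or] at k
  replace k := allLt_iff.1 k _ (a v 3)
  rw [show tr _ _ _ _ _ 0 0 0 1 = true from t 3, (allLt_iff (n := 240)).2 fun r hr =>
    tr_of (x := R ⟨r, hr⟩) (by simpa [dotProduct, Fin.sum_univ_four, R_eq] using h ⟨r, hr⟩) (R_eq _)] at k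
  simp only [Bool.not_true, Bool.false_or, Bool.or_false, Bool.or_eq_true, Bool.not_eq_true', ← Bool.not_eq_true,
    allLt_iff, not_forall, not_not, Bool.and_eq_true] at k
  refine k.imp zero fun ⟨r, hr, ⟨⟨k0, k1⟩, k2⟩, k3⟩ => ⟨⟨r, hr⟩, ?_⟩
  rw [funext_iff, funext_iff, ← forall_and, Fin.forall_fin_succ, Fin.forall_fin_succ, Fin.forall_fin_two]
  exact ⟨gd_spec 0 k0, gd_spec 1 k1, gd_spec 2 k2, gd_spec 3 k3⟩

end T

theorem trans5 {l v : V5} (hl : l ≠ 0) (h0 : l ⬝ᵥ v = 0)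
    (h : ∀ r, ∃ s, R s = R r - (R r ⬝ᵥ v) • l) : v = 0 :=
  (T.key hl h).resolve_right fun ⟨a, b, c⟩ => by
    rw [b, c, R_cv, A_w_left, RootSys.A_self, A_w_self] at h0
    exact absurd h0 (by decide)

theorem rigid5 {l v : V5} (h2 : l ⬝ᵥ v = 2) (h : ∀ r, ∃ s, R s = R r - (R r ⬝ᵥ v) • l) :
    ∃ a, l = R a ∧ v = cv a :=
  (T.key (by rintro rfl; exact absurd ((zero_dotProduct v).symm.trans h2) (by decide)) h).resolve_left (by
    rintro rfl; exact absurd ((dotProduct_zero l).symm.trans h2) (by decide))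

end CF.Oq
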