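import Cfsg.Agent.Oq.B
import Cfsg.Agent.Oq.T

/-! Subgroups `Ω₈⁺(4)` of `E₈(2)`: conjugacy of the subgroups `5⁴`. -/

set_option autoImplicit false

namespace CF.Oq

open CF.Chev CF.BN Cfsg Cfsg.Lie Matrix

namespace Sy

theorem exists_ker {P : Type*} [Group P] [Finite P] (hP : Nat.card P ∣ 5 ^ 5) {B : Subgroup P}
    (hB : Nat.card B = 5 ^ 4) : ∃ f : P →* Multiplicative (ZMod 5), f.ker = B := by
  have h1 := B.card_mul_index
  rw [hB] at h1
  have h2 : B.index ∣ 5 := Nat.dvd_of_mul_dvd_mul_left (by decide : 0 < 5 ^ 4) (h1 ▸ hP)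
  rcases (Nat.dvd_prime Nat.prime_five).1 h2 with h | h
  · exact ⟨1, by rw [Subgroup.index_eq_one.1 h, MonoidHom.ker_one]⟩
  · have : B.Normal := Subgroup.normal_of_index_eq_minFac_card (by rw [← h1, h]; norm_num)
    have : Fact (Nat.Prime 5) := ⟨Nat.prime_five⟩
    let φ : P ⧸ B ≃* Multiplicative (ZMod 5) := mulEquivOfPrimeCardEq (p := 5) h (by simp)
    refine ⟨φ.toMonoidHom.comp (QuotientGroup.mk' B), ?_⟩
    ext x
    simp

/-- The homomorphism given by an additive family. -/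
def hom {G : Type*} [Group G] (e : V5 → G) (h : ∀ k l, e (k + l) = e k * e l) :
    Multiplicative V5 →* G := MonoidHom.mk' (fun k => e k.toAdd) fun _ _ => h _ _

theorem card_range {G : Type*} [Group G] {e : V5 → G} (h : ∀ k l, e (k + l) = e k * e l)
    (hi : Function.Injective e) : Nat.card (hom e h).range = 5 ^ 4 := by
  rw [← Nat.card_congr (MonoidHom.ofInjective (f := hom e h) fun _ _ h => hi h).toEquiv]
  simp

theorem five : ∀ z : ZMod 5, 5 • z = 0 := by decide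

theorem exists_dot (f : V5 →+ ZMod 5) : ∃ l : V5, ∀ k, f k = l ⬝ᵥ k := by
  obtain ⟨l, hl⟩ := (dotProductEquiv (ZMod 5) (Fin 4)).surjective (f.toZModLinearMap 5)
  exact ⟨l, fun k => (DFunLike.congr_fun hl k).symm⟩

end Sy

namespace Cx

variable (c : Cx)

/-- The linear map induced on the torus. -/
theorem exists_lin {g : c.G} (h : ∀ k, ∃ k', g * c.ep k * g⁻¹ = c.ep k') :
    ∃ M : V5 →ₗ[ZMod 5] V5, Function.Injective M ∧ ∀ k, g * c.ep k * g⁻¹ = c.ep (M k) := by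
  choose f hf using h
  refine ⟨(AddMonoidHom.mk' f fun k l => c.ep_inj ?_).toZModLinearMap 5, fun k l e => c.ep_inj ?_, hf⟩
  · rw [ep_add, ← hf, ← hf, ← hf, ep_add]; group
  · have := hf k
    rw [show f k = f l from e, ← hf l] at this
    simpa using this

theorem mem_E {a : c.G} (ha : a ∈ c.Γ) (h : ∀ k, ∃ k', a * c.ep k * a⁻¹ = c.ep k') (h5 : a ^ 5 = 1)
    {l : V5} (hl : ∀ k, l ⬝ᵥ k = 0 → a * c.ep k = c.ep k * a) : ∃ k, a = c.ep k := by
  refine c.cent_E ha fun k => ?_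
  by_cases h0 : l = 0
  · exact hl k (by simp [h0])
  have : Fact (Nat.Prime 5) := ⟨Nat.prime_five⟩
  obtain ⟨M, -, hM⟩ := c.exists_lin h
  obtain ⟨x, hx⟩ : ∃ x, l ⬝ᵥ x = 1 := by
    obtain ⟨x, hx⟩ := not_forall.1 fun e => h0 (dotProduct_eq_zero l e)
    exact ⟨(l ⬝ᵥ x)⁻¹ • x, by rw [dotProduct_smul, smul_eq_mul, inv_mul_cancel₀ hx]⟩
  have e1 : ∀ k, M k = k - (l ⬝ᵥ k) • (x - M x) := fun k => by
    have := hl (k - (l ⬝ᵥ k) • x) (by rw [dotProduct_sub, dotProduct_smul, hx]; simp)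
    rw [← mul_inv_eq_iff_eq_mul, hM, c.ep_inj.eq_iff, map_sub, map_smul, sub_eq_iff_eq_add] at this
    rw [this, smul_sub]
    abel
  obtain ⟨v, hv⟩ : ∃ v, v = x - M x := ⟨_, rfl⟩
  rw [← hv] at e1
  have e2 : ∀ n : ℕ, a ^ n * c.ep v * (a ^ n)⁻¹ = c.ep ((1 - l ⬝ᵥ v) ^ n • v) := fun n => by
    induction n with
    | zero => simp
    | succ n ih =>
      rw [pow_succ', pow_succ, mul_smul, sub_smul, one_smul, ← e1, ← map_smul, ← hM, ← ih]
      group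
  have e3 := e2 5
  rw [h5, one_mul, inv_one, mul_one, c.ep_inj.eq_iff, ZMod.pow_card, sub_smul, one_smul, eq_comm,
    sub_eq_self, smul_eq_zero] at e3
  have e4 : v = 0 := e3.elim (fun e3 => trans5 h0 e3 fun r => by
    obtain ⟨u, hu, k, e⟩ := c.norm_E ha h
    refine ⟨u⁻¹ r, dotProduct_eq_iff.1 fun y => ?_⟩
    have := (c.conj_ep_iff (e ▸ c.nW_ep k hu.1) y _).1 (hM y) (u⁻¹ r)
    rw [← this, e1, show u (u⁻¹ r) = r by simp, dotProduct_sub, sub_dotProduct, dotProduct_smul,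
      smul_dotProduct, smul_eq_mul, smul_eq_mul, mul_comm]) id
  rw [← mul_inv_eq_iff_eq_mul, hM, e1, e4, smul_zero, sub_zero]

theorem conj_E (hc : c.Ok) {H : Subgroup c.G} (h1 : H ≤ c.Γ) (h2 : ∀ k, c.ep k ∈ H) {e : V5 → c.G}
    (h3 : ∀ k l, e (k + l) = e k * e l) (h4 : Function.Injective e) (h5 : ∀ k, e k ∈ H) :
    ∃ g ∈ H, ∀ k, ∃ k', g * e k * g⁻¹ = c.ep k' := by
  have := hc.finite
  have : Finite H := Finite.of_injective _ (Subgroup.inclusion_injective h1)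
  have : Fact (Nat.Prime 5) := ⟨Nat.prime_five⟩
  have key : ∀ {e : V5 → c.G} (h3 : ∀ k l, e (k + l) = e k * e l), Function.Injective e →
      (∀ k, e k ∈ H) → ∃ Q : Sylow 5 H, (Sy.hom e h3).range.subgroupOf H ≤ Q := fun h3 h4 h5 =>
    IsPGroup.exists_le_sylow (IsPGroup.of_card (n := 4) (by
      rw [Nat.card_congr (Subgroup.subgroupOfEquivOfLe (by rintro _ ⟨k, rfl⟩; exact h5 _)).toEquiv,
        Sy.card_range h3 h4]))
  obtain ⟨Q, hQ⟩ := key c.ep_add c.ep_inj h2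
  obtain ⟨Q', hQ'⟩ := key h3 h4 h5
  obtain ⟨g, rfl⟩ := MulAction.exists_smul_eq H Q' Q
  let P : Subgroup c.G := (g • Q' : Sylow 5 H).toSubgroup.map H.subtype
  have hP : Nat.card P ∣ 5 ^ 5 := by
    obtain ⟨n, hn⟩ := (g • Q').isPGroup'.exists_card_eq
    have h6 : Nat.card P = 5 ^ n := (Subgroup.card_map_of_injective H.subtype_injective).trans hn
    have h7 : Nat.card P ∣ Nat.card c.Γ :=
      Subgroup.card_dvd_of_le ((Subgroup.map_subtype_le _).trans h1)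
    rw [h6] at h7 ⊢
    exact pow_dvd_pow 5 (not_lt.1 fun h => hc ((pow_dvd_pow 5 h).trans h7))
  have : Finite P := Nat.finite_of_card_ne_zero (ne_zero_of_dvd_ne_zero (by decide) hP)
  have p1 : ∀ k, c.ep k ∈ P := fun k => ⟨⟨_, h2 k⟩, hQ ⟨Multiplicative.ofAdd k, rfl⟩, rfl⟩
  have p2 : ∀ k, g * e k * (g : c.G)⁻¹ ∈ P := fun k => ⟨g * ⟨_, h5 k⟩ * g⁻¹,
    Subgroup.smul_mem_pointwise_smul _ (MulAut.conj g) _ (hQ' ⟨Multiplicative.ofAdd k, rfl⟩), rfl⟩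
  have a3 : ∀ k l, g * e (k + l) * (g : c.G)⁻¹ = g * e k * (g : c.G)⁻¹ * (g * e l * (g : c.G)⁻¹) :=
    fun k l => by rw [h3]; group
  have ker : ∀ {e : V5 → c.G} (h3 : ∀ k l, e (k + l) = e k * e l), Function.Injective e →
      (∀ k, e k ∈ P) → ∃ f : P →* Multiplicative (ZMod 5), ∀ x : P, f x = 1 ↔ ∃ k, e k = x :=
    fun h3 h4 h5 => by
      obtain ⟨f, hf⟩ := Sy.exists_ker hP (B := (Sy.hom _ h3).range.subgroupOf P) (by
        rw [Nat.card_congr (Subgroup.subgroupOfEquivOfLe (by rintro _ ⟨k, rfl⟩; exact h5 _)).toEquiv,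
          Sy.card_range h3 h4])
      exact ⟨f, fun x => by rw [← MonoidHom.mem_ker, hf]; rfl⟩
  obtain ⟨f, hf⟩ := ker c.ep_add c.ep_inj p1
  obtain ⟨f', hf'⟩ := ker a3 (fun k l h => h4 (by simpa using h)) p2
  obtain ⟨l, hl⟩ := Sy.exists_dot (AddMonoidHom.mk' (fun k => (f' ⟨_, p1 k⟩).toAdd) fun k l => by
    rw [← toAdd_mul, ← map_mul]
    exact congrArg (fun x => (f' x).toAdd) (Subtype.ext (c.ep_add k l)))
  refine ⟨g, g.2, fun k => (c.mem_E (h1 (Subgroup.map_subtype_le _ (p2 k))) (fun k' => ?_) ?_ (l := l)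
    fun k' hk => ?_).imp fun _ h => h⟩
  · obtain ⟨k'', h⟩ := (hf (⟨_, p2 k⟩ * ⟨_, p1 k'⟩ * ⟨_, p2 k⟩⁻¹)).1 (by
      rw [map_mul, map_mul, (hf ⟨_, p1 k'⟩).2 ⟨k', rfl⟩, mul_one, map_inv, mul_inv_cancel])
    exact ⟨k'', h.symm⟩
  · have := map_pow (Sy.hom (fun k => g * e k * (g : c.G)⁻¹) a3) (Multiplicative.ofAdd k) 5
    rw [← ofAdd_nsmul, show (5 • k : V5) = 0 from funext fun j =>
      Sy.five (k j), ofAdd_zero, map_one] at this
    exact this.symm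
  · obtain ⟨k'', h⟩ := (hf' ⟨_, p1 k'⟩).1 (toAdd_eq_zero.1 ((hl k').trans hk))
    rw [show c.ep k' = _ from h.symm, ← a3, ← a3, add_comm]

end Cx

end CF.Oq
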